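import Cfsg.Agent.DihedralB58.Basic
import Cfsg.Agent.SRing54.Basic

/-!
The two by two matrix picture of convolution on a dihedral group, prime powers and multipliers.
-/

set_option autoImplicit false

namespace CfsgLib.DihedralB58

open Equiv DihedralGroup

variable {m : ℕ} [NeZero m] {R : Type*} [CommRing R]

/-- The group algebra element of a function. -/
noncomputable def mk (f : ZMod m → R) : AddMonoidAlgebra R (ZMod m) :=
  AddMonoidAlgebra.ofCoeff (Finsupp.equivFunOnFinite.symm f)

@[simp] theorem coeff_mk (f : ZMod m → R) (x : ZMod m) : (mk f).coeff x = f x := rfl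

theorem mk_mul (f g : ZMod m → R) (x : ZMod m) : (mk f * mk g).coeff x = ∑ y, f y * g (x - y) := by
  rw [CfsgLib.SRing54.mul_apply_sum]
  rfl

/-- The rotation part. -/
noncomputable def aPart (φ : DihedralGroup m → R) : AddMonoidAlgebra R (ZMod m) := mk fun x => φ (r x)

/-- The reflection part. -/
noncomputable def bPart (φ : DihedralGroup m → R) : AddMonoidAlgebra R (ZMod m) := mk fun x => φ (sr (-x))

/-- The reversed reflection part. -/
noncomputable def bBar (φ : DihedralGroup m → R) : AddMonoidAlgebra R (ZMod m) := mk fun x => φ (sr x)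

/-- The matrix of a function. -/
noncomputable def toMat (φ : DihedralGroup m → R) : Matrix (Fin 2) (Fin 2) (AddMonoidAlgebra R (ZMod m)) :=
  !![aPart φ, bPart φ; bBar φ, mk fun x => φ (r (-x))]

theorem conv_r (φ ψ : DihedralGroup m → R) (x : ZMod m) :
    conv φ ψ (r x) = (∑ i, φ (r i) * ψ (r (x - i))) + ∑ j, φ (sr j) * ψ (sr (j + x)) := by
  rw [conv, sum_split]
  simp [neg_add_eq_sub]

theorem conv_sr (φ ψ : DihedralGroup m → R) (x : ZMod m) :
    conv φ ψ (sr x) = (∑ i, φ (r i) * ψ (sr (x + i))) + ∑ j, φ (sr j) * ψ (r (x - j)) := by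
  rw [conv, sum_split]
  simp [sub_neg_eq_add]

theorem sum_neg (f : ZMod m → R) : ∑ i, f (-i) = ∑ i, f i := Equiv.sum_comp (Equiv.neg (ZMod m)) f

theorem toMat_conv (φ ψ : DihedralGroup m → R) : toMat (conv φ ψ) = toMat φ * toMat ψ := by
  ext i j x
  fin_cases i <;> fin_cases j <;>
    simp only [toMat, aPart, bPart, bBar, Matrix.mul_apply, Fin.sum_univ_two, Fin.zero_eta, Fin.mk_one,
      Matrix.of_apply, Matrix.cons_val', Matrix.cons_val_zero, Matrix.cons_val_one, Matrix.empty_val',
      Matrix.cons_val_fin_one, AddMonoidAlgebra.coeff_add, Finsupp.add_apply, mk_mul, coeff_mk,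
      conv_r, conv_sr]
  · congr 1
    rw [← sum_neg]
    simp [neg_add_eq_sub]
  · congr 1
    · simp [sub_eq_add_neg, neg_add_rev, add_comm]
    · rw [← sum_neg]
      simp [sub_eq_add_neg, neg_add_rev, add_comm]
  · rw [add_comm]
    congr 1
    rw [← sum_neg]
    simp [sub_eq_add_neg, neg_add_rev, add_comm]
  · rw [add_comm]
    congr 1
    · simp [sub_eq_add_neg, neg_add_rev, add_comm]
    · rw [← sum_neg]
      simp [sub_eq_add_neg, neg_add_rev, add_comm]

theorem toMat_one : toMat (fun x : DihedralGroup m => if x = 1 then (1 : R) else 0) = 1 := by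
  have h1 : ∀ y : ZMod m, (r y : DihedralGroup m) = 1 ↔ y = 0 := fun y =>
    ⟨fun h => DihedralGroup.r.inj (h.trans DihedralGroup.one_def), fun h => h ▸ rfl⟩
  have h2 : ∀ y : ZMod m, ¬ (sr y : DihedralGroup m) = 1 := fun y h => by cases h
  ext i j x
  fin_cases i <;> fin_cases j <;>
    simp [toMat, aPart, bPart, bBar, AddMonoidAlgebra.one_def, Finsupp.single_apply, eq_comm, h1, h2]

theorem toMat_cpow (φ : DihedralGroup m → R) : ∀ n : ℕ, toMat (cpow φ n) = toMat φ ^ n
  | 0 => by rw [pow_zero]; exact toMat_one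
  | n + 1 => by rw [pow_succ, ← toMat_cpow φ n]; exact toMat_conv _ _

theorem toMat_apply_r (φ : DihedralGroup m → R) (x : ZMod m) : (toMat φ 0 0).coeff x = φ (r x) := rfl

theorem toMat_apply_sr (φ : DihedralGroup m → R) (x : ZMod m) :
    (toMat φ 0 1).coeff x = φ (sr (-x)) := rfl

theorem eq_of_toMat {φ ψ : DihedralGroup m → R} (h : toMat φ = toMat ψ) (u : DihedralGroup m) :
    φ u = ψ u := by
  rcases u with x | x
  · rw [← toMat_apply_r φ, h, toMat_apply_r]
  · rw [← neg_neg x, ← toMat_apply_sr φ, h, toMat_apply_sr]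

section CharP

variable {p : ℕ} [hp : Fact p.Prime]

instance : CharP (AddMonoidAlgebra (ZMod p) (ZMod m)) p :=
  charP_of_injective_ringHom (f := AddMonoidAlgebra.singleZeroRingHom)
    (fun a b hab => by
      simpa [AddMonoidAlgebra.ext_iff, Finsupp.single_eq_single_iff] using
        congrArg (fun Φ : AddMonoidAlgebra (ZMod p) (ZMod m) => Φ.coeff 0) hab) p

theorem mk_pow_char (f : ZMod m → ZMod p) (x : ZMod m) :
    (mk f ^ p).coeff x = ∑ y ∈ Finset.univ.filter (fun y => p • y = x), f y := by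
  classical
  have h : mk f = ∑ y, AddMonoidAlgebra.single y (f y) := by
    ext z
    simp [AddMonoidAlgebra.coeff_sum, Finsupp.single_apply]
  rw [h, sum_pow_char p]
  simp [AddMonoidAlgebra.single_pow, AddMonoidAlgebra.coeff_sum, Finsupp.single_apply, ZMod.pow_card,
    Finset.sum_filter]

/-- The off-diagonal part. -/
noncomputable def offMat (φ : DihedralGroup m → R) : Matrix (Fin 2) (Fin 2) (AddMonoidAlgebra R (ZMod m)) :=
  !![0, bPart φ; bBar φ, 0]

theorem offMat_sq (φ : DihedralGroup m → R) : offMat φ * offMat φ = Matrix.scalar (Fin 2) (bPart φ * bBar φ) := by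
  ext i j x
  fin_cases i <;> fin_cases j <;>
    simp [offMat, Matrix.mul_apply, Fin.sum_univ_two, mul_comm]

theorem toMat_eq_add {φ : DihedralGroup m → R} (hs : ∀ x, φ (r (-x)) = φ (r x)) :
    toMat φ = Matrix.scalar (Fin 2) (aPart φ) + offMat φ := by
  ext i j x
  fin_cases i <;> fin_cases j <;> simp [toMat, offMat, aPart, hs]

theorem toMat_pow_char {φ : DihedralGroup m → ZMod p} (hs : ∀ x, φ (r (-x)) = φ (r x)) :
    toMat φ ^ p = Matrix.scalar (Fin 2) (aPart φ ^ p) + offMat φ ^ p := by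
  rw [toMat_eq_add hs, add_pow_char_of_commute p
    ((Matrix.scalar_commute _ (fun r' => Commute.all _ r') _)), map_pow]

/-- The rotation part of an odd prime power. -/
theorem cpow_prime_r (hp2 : p ≠ 2) {φ : DihedralGroup m → ZMod p} (hs : ∀ x, φ (r (-x)) = φ (r x))
    (x : ZMod m) :
    cpow φ p (r x) = ∑ y ∈ Finset.univ.filter (fun y => p • y = x), φ (r y) := by
  rw [← toMat_apply_r (cpow φ p), toMat_cpow, toMat_pow_char hs]
  obtain ⟨h, hh⟩ := hp.out.odd_of_ne_two hp2
  have h1 : offMat φ ^ p = Matrix.scalar (Fin 2) ((bPart φ * bBar φ) ^ h) * offMat φ := by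
    rw [show offMat φ ^ p = offMat φ ^ (2 * h + 1) from congrArg _ hh, pow_succ, pow_mul, pow_two,
      offMat_sq, map_pow]
  rw [h1]
  simp only [Matrix.add_apply, Matrix.scalar_apply, Matrix.diagonal_mul, Matrix.diagonal_apply_eq]
  simp only [offMat, Matrix.of_apply, Matrix.cons_val', Matrix.cons_val_zero, Matrix.empty_val',
    Matrix.cons_val_fin_one, mul_zero, add_zero]
  exact mk_pow_char _ x

/-- A prime power when the reflection part has square zero. -/
theorem cpow_prime_of_sq_zero {φ : DihedralGroup m → ZMod p} (hs : ∀ x, φ (r (-x)) = φ (r x))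
    (hb : bPart φ * bBar φ = 0) (x : ZMod m) :
    cpow φ p (sr x) = 0 ∧
      cpow φ p (r x) = ∑ y ∈ Finset.univ.filter (fun y => p • y = x), φ (r y) := by
  have h0 : offMat φ ^ p = 0 := by
    obtain ⟨k, hk⟩ := Nat.exists_eq_add_of_le hp.out.two_le
    rw [show offMat φ ^ p = offMat φ ^ (2 + k) from congrArg _ hk, pow_add, pow_two, offMat_sq, hb,
      map_zero, zero_mul]
  constructor
  · rw [← neg_neg x, ← toMat_apply_sr (cpow φ p), toMat_cpow, toMat_pow_char hs, h0, add_zero]
    simp [Matrix.scalar_apply]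
  · rw [← toMat_apply_r (cpow φ p), toMat_cpow, toMat_pow_char hs, h0, add_zero]
    simp only [Matrix.scalar_apply, Matrix.diagonal_apply_eq]
    exact mk_pow_char _ x

end CharP

section Symm

variable {Γ : Subgroup (Perm (DihedralGroup m))} (hT : HasTrans Γ) (hP : Prim Γ)

include hT hP in
theorem conv_comm {φ ψ : DihedralGroup m → R} (hφ : Inv Γ φ) (hψ : Inv Γ ψ) (u : DihedralGroup m) :
    conv φ ψ u = conv ψ φ u := by
  rw [← symm hT hP (Inv.conv hT hφ hψ) u, conv, conv,
    ← Equiv.sum_comp (Equiv.mulLeft u⁻¹)]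
  refine Finset.sum_congr rfl fun v _ => ?_
  rw [Equiv.coe_mulLeft, mul_inv_rev, inv_inv, ← symm hT hP hφ (u⁻¹ * v), mul_inv_rev, inv_inv,
    mul_comm]
  congr 1
  rw [mul_assoc, mul_inv_cancel, mul_one, symm hT hP hψ]

include hT hP in
theorem commute_toMat {φ ψ : DihedralGroup m → R} (hφ : Inv Γ φ) (hψ : Inv Γ ψ) :
    Commute (toMat φ) (toMat ψ) := by
  rw [Commute, SemiconjBy, ← toMat_conv, ← toMat_conv]
  exact congrArg toMat (funext (conv_comm hT hP hφ hψ))

include hT hP in
theorem conv_self_one {φ : DihedralGroup m → R} (hφ : Inv Γ φ) : conv φ φ 1 = ∑ u, φ u * φ u :=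
  Finset.sum_congr rfl fun u _ => by rw [mul_one, symm hT hP hφ]

theorem sum_conv (φ ψ : DihedralGroup m → R) : ∑ u, conv φ ψ u = (∑ u, φ u) * ∑ u, ψ u := by
  simp only [conv]
  rw [Finset.sum_comm, Finset.sum_mul]
  refine Finset.sum_congr rfl fun v _ => ?_
  rw [← Finset.mul_sum, ← Equiv.sum_comp (Equiv.mulLeft v⁻¹) ψ]
  rfl

end Symm

end CfsgLib.DihedralB58
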