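import Mathlib

/-!
Transitive permutation groups of a dihedral group containing all left translations: orbit
invariant functions and their convolution.
-/

set_option autoImplicit false

namespace CfsgLib.DihedralB58

open Equiv DihedralGroup

variable {m : ℕ} {Γ : Subgroup (Perm (DihedralGroup m))}

/-- The group contains all left translations. -/
def HasTrans (Γ : Subgroup (Perm (DihedralGroup m))) : Prop := ∀ d, Equiv.mulLeft d ∈ Γ

/-- The same orbit of the stabiliser of one. -/
def Rel (Γ : Subgroup (Perm (DihedralGroup m))) (x y : DihedralGroup m) : Prop :=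
  ∃ k ∈ Γ, k 1 = 1 ∧ k x = y

/-- A function constant on orbits of the stabiliser of one. -/
def Inv {R : Type*} (Γ : Subgroup (Perm (DihedralGroup m))) (φ : DihedralGroup m → R) : Prop :=
  ∀ k ∈ Γ, k 1 = 1 → ∀ x, φ (k x) = φ x

/-- A set which is a union of orbits. -/
def InvSet (Γ : Subgroup (Perm (DihedralGroup m))) (S : Set (DihedralGroup m)) : Prop :=
  ∀ k ∈ Γ, k 1 = 1 → ∀ x ∈ S, k x ∈ S

/-- There is no proper non-trivial orbit-invariant subgroup. -/
def Prim (Γ : Subgroup (Perm (DihedralGroup m))) : Prop :=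
  ∀ H : Subgroup (DihedralGroup m), InvSet Γ (H : Set (DihedralGroup m)) → H = ⊥ ∨ H = ⊤

theorem Rel.refl (x : DihedralGroup m) : Rel Γ x x := ⟨1, Γ.one_mem, rfl, rfl⟩

theorem inv_fix {k : Perm (DihedralGroup m)} (h0 : k 1 = 1) : k⁻¹ 1 = 1 :=
  k.injective (by rw [h0]; exact k.apply_symm_apply 1)

theorem Rel.symm {x y : DihedralGroup m} (h : Rel Γ x y) : Rel Γ y x := by
  obtain ⟨k, hk, h0, rfl⟩ := h
  exact ⟨k⁻¹, Γ.inv_mem hk, inv_fix h0, Equiv.symm_apply_apply k x⟩

theorem Rel.trans {x y z : DihedralGroup m} (h : Rel Γ x y) (h' : Rel Γ y z) : Rel Γ x z := by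
  obtain ⟨k, hk, h0, rfl⟩ := h
  obtain ⟨k', hk', h0', rfl⟩ := h'
  exact ⟨k' * k, Γ.mul_mem hk' hk, by rw [Perm.mul_apply, h0, h0'], rfl⟩

theorem Rel.one_left {x : DihedralGroup m} (h : Rel Γ 1 x) : x = 1 := by
  obtain ⟨k, -, h0, rfl⟩ := h
  exact h0

theorem invSet_rel (x : DihedralGroup m) : InvSet Γ {y | Rel Γ x y} :=
  fun k hk h0 y hy => hy.trans ⟨k, hk, h0, rfl⟩

theorem InvSet.mem_iff {S : Set (DihedralGroup m)} (hS : InvSet Γ S) {k : Perm (DihedralGroup m)}
    (hk : k ∈ Γ) (h0 : k 1 = 1) (x : DihedralGroup m) : k x ∈ S ↔ x ∈ S := by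
  refine ⟨fun h => ?_, hS k hk h0 x⟩
  have := hS k⁻¹ (Γ.inv_mem hk) (inv_fix h0) _ h
  exact (Equiv.symm_apply_apply k x) ▸ this

theorem InvSet.indicator {R : Type*} [Zero R] [One R] {S : Set (DihedralGroup m)} [DecidablePred (· ∈ S)]
    (hS : InvSet Γ S) : Inv Γ fun x => if x ∈ S then (1 : R) else 0 :=
  fun k hk h0 x => by simp only [hS.mem_iff hk h0]

theorem Inv.comp {R R' : Type*} {φ : DihedralGroup m → R} (hφ : Inv Γ φ) (g : R → R') :
    Inv Γ fun x => g (φ x) :=
  fun k hk h0 x => congrArg g (hφ k hk h0 x)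

theorem Inv.comp₂ {R R' R'' : Type*} {φ : DihedralGroup m → R} {ψ : DihedralGroup m → R'}
    (hφ : Inv Γ φ) (hψ : Inv Γ ψ) (g : R → R' → R'') : Inv Γ fun x => g (φ x) (ψ x) :=
  fun k hk h0 x => by simp only [hφ k hk h0 x, hψ k hk h0 x]

theorem inv_eq_one_apply (x : DihedralGroup m) {k : Perm (DihedralGroup m)} (h0 : k 1 = 1) :
    k x = 1 ↔ x = 1 := ⟨fun h => k.injective (h.trans h0.symm), fun h => h ▸ h0⟩

theorem inv_ite_one {R : Type*} {φ : DihedralGroup m → R} (hφ : Inv Γ φ) (c : R) :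
    Inv Γ fun x => if x = 1 then c else φ x :=
  fun k hk h0 x => by simp only [inv_eq_one_apply x h0, hφ k hk h0 x]

variable (hT : HasTrans Γ)

include hT in
/-- Moving a stabiliser element along a translation. -/
theorem exists_shift {k : Perm (DihedralGroup m)} (hk : k ∈ Γ) (z : DihedralGroup m) :
    ∃ j ∈ Γ, j 1 = 1 ∧ ∀ x, j x = (k z)⁻¹ * k (z * x) :=
  ⟨Equiv.mulLeft (k z)⁻¹ * k * Equiv.mulLeft z,
    Γ.mul_mem (Γ.mul_mem (hT _) hk) (hT z), by simp, fun x => by simp⟩

include hT in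
theorem Inv.comp_inv {R : Type*} {φ : DihedralGroup m → R} (hφ : Inv Γ φ) :
    Inv Γ fun x => φ x⁻¹ := by
  intro k hk h0 x
  obtain ⟨j, hj, hj0, hjx⟩ := exists_shift hT hk x
  have h1 := hjx x⁻¹
  rw [mul_inv_cancel, h0, mul_one] at h1
  show φ (k x)⁻¹ = φ x⁻¹
  rw [← h1, hφ j hj hj0]

include hT in
theorem closure_invSet {S : Set (DihedralGroup m)} (hS : InvSet Γ S) :
    InvSet Γ (Subgroup.closure S : Set (DihedralGroup m)) := by
  intro k hk h0 x hx
  revert k
  induction hx using Subgroup.closure_induction_left with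
  | one => intro k _ h0; rw [h0]; exact one_mem _
  | mul_left x hx y _ ih =>
    intro k hk h0
    obtain ⟨j, hj, hj0, hjy⟩ := exists_shift hT hk x
    have h2 : k (x * y) = k x * j y := by rw [hjy, mul_inv_cancel_left]
    rw [h2]
    exact mul_mem (Subgroup.subset_closure (hS k hk h0 x hx)) (ih j hj hj0)
  | inv_mul_cancel x hx y _ ih =>
    intro k hk h0
    obtain ⟨j, hj, hj0, hjy⟩ := exists_shift hT hk x⁻¹
    have h2 : k (x⁻¹ * y) = k x⁻¹ * j y := by rw [hjy, mul_inv_cancel_left]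
    rw [h2]
    refine mul_mem ?_ (ih j hj hj0)
    have h1 := hjy x
    rw [inv_mul_cancel, h0, mul_one] at h1
    rw [← inv_mem_iff, ← h1]
    exact Subgroup.subset_closure (hS j hj hj0 x hx)

/-- Convolution. -/
def conv [NeZero m] {R : Type*} [Semiring R] (φ ψ : DihedralGroup m → R) (x : DihedralGroup m) : R :=
  ∑ u, φ u * ψ (u⁻¹ * x)

include hT in
theorem Inv.conv [NeZero m] {R : Type*} [Semiring R] {φ ψ : DihedralGroup m → R} (hφ : Inv Γ φ)
    (hψ : Inv Γ ψ) : Inv Γ (CfsgLib.DihedralB58.conv φ ψ) := by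
  intro k hk h0 x
  show ∑ u, φ u * ψ (u⁻¹ * k x) = _
  rw [← Equiv.sum_comp k]
  refine Finset.sum_congr rfl fun u _ => ?_
  obtain ⟨j, hj, hj0, hjx⟩ := exists_shift hT hk u
  rw [hφ k hk h0 u]
  have h1 := hjx (u⁻¹ * x)
  rw [mul_inv_cancel_left] at h1
  rw [← h1, hψ j hj hj0]

/-- Convolution powers. -/
def cpow [NeZero m] {R : Type*} [Semiring R] (φ : DihedralGroup m → R) : ℕ → DihedralGroup m → R
  | 0 => fun x => if x = 1 then 1 else 0
  | n + 1 => conv (cpow φ n) φ

include hT in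
theorem Inv.cpow [NeZero m] {R : Type*} [Semiring R] {φ : DihedralGroup m → R} (hφ : Inv Γ φ) :
    ∀ n : ℕ, Inv Γ (CfsgLib.DihedralB58.cpow φ n)
  | 0 => fun k _ h0 x => by simp only [CfsgLib.DihedralB58.cpow, inv_eq_one_apply x h0]
  | n + 1 => Inv.conv hT (Inv.cpow hφ n) hφ

theorem sum_split [NeZero m] {R : Type*} [AddCommMonoid R] (f : DihedralGroup m → R) :
    ∑ u, f u = (∑ i : ZMod m, f (r i)) + ∑ i : ZMod m, f (sr i) := by
  classical
  have e : ZMod m ⊕ ZMod m ≃ DihedralGroup m :=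
    { toFun := Sum.elim r sr
      invFun := fun d => match d with
        | .r i => Sum.inl i
        | .sr i => Sum.inr i
      left_inv := by rintro (i | i) <;> rfl
      right_inv := by rintro (i | i) <;> rfl }
  have hb : Function.Bijective (Sum.elim r sr : ZMod m ⊕ ZMod m → DihedralGroup m) :=
    ⟨by rintro (i | i) (j | j) h <;> simp_all, by
      rintro (i | i)
      · exact ⟨Sum.inl i, rfl⟩
      · exact ⟨Sum.inr i, rfl⟩⟩
  rw [← hb.sum_comp f, Fintype.sum_sum_type]
  simp

section Prim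

variable [NeZero m] (hP : Prim Γ)

omit [NeZero m] in
include hT hP in
/-- An invariant function vanishing on the reflections vanishes on non-trivial rotations. -/
theorem eq_zero_of_sr {R : Type*} [Zero R] {φ : DihedralGroup m → R} (hφ : Inv Γ φ)
    (h : ∀ i, φ (sr i) = 0) {x : ZMod m} (hx : x ≠ 0) : φ (r x) = 0 := by
  classical
  by_contra hne
  set S : Set (DihedralGroup m) := {u | φ u ≠ 0 ∧ u ≠ 1}
  have hS : InvSet Γ S := fun k hk h0 u hu =>
    ⟨by rw [hφ k hk h0]; exact hu.1, fun e => hu.2 ((inv_eq_one_apply u h0).mp e)⟩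
  have hxS : r x ∈ S := ⟨hne, fun e => hx (DihedralGroup.r.inj (e.trans DihedralGroup.one_def))⟩
  let C : Subgroup (DihedralGroup m) :=
    { carrier := Set.range r
      mul_mem' := by rintro _ _ ⟨i, rfl⟩ ⟨j, rfl⟩; exact ⟨i + j, rfl⟩
      one_mem' := ⟨0, rfl⟩
      inv_mem' := by rintro _ ⟨i, rfl⟩; exact ⟨-i, rfl⟩ }
  have hle : Subgroup.closure S ≤ C := by
    rw [Subgroup.closure_le]
    rintro (i | i) hu
    · exact ⟨i, rfl⟩
    · exact absurd (h i) hu.1
  rcases hP _ (closure_invSet hT hS) with h1 | h1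
  · have := h1 ▸ Subgroup.subset_closure hxS
    exact hxS.2 (Subgroup.mem_bot.mp this)
  · obtain ⟨i, hi⟩ := hle (h1 ▸ Subgroup.mem_top (sr 0 : DihedralGroup m))
    simp at hi

include hT hP in
/-- An invariant function vanishing on all rotations is zero. -/
theorem eq_zero_of_r (hm : 2 ≤ m) {R : Type*} [Zero R] {φ : DihedralGroup m → R} (hφ : Inv Γ φ)
    (h : ∀ x, φ (r x) = 0) (u : DihedralGroup m) : φ u = 0 := by
  classical
  rcases u with x | i
  · exact h x
  by_contra hne
  set X : Set (DihedralGroup m) := {y | Rel Γ (sr i) y}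
  have hX : InvSet Γ X := invSet_rel _
  have hXr : ∀ x : ZMod m, r x ∉ X := by
    rintro x ⟨k, hk, h0, hkx⟩
    exact hne (by rw [← hφ k hk h0 (sr i), hkx, h x])
  set χ : DihedralGroup m → ℕ := fun y => if y ∈ X then 1 else 0
  have hc := Inv.conv hT (hX.indicator (R := ℕ)) (hX.indicator (R := ℕ))
  have hz : ∀ j, conv χ χ (sr j) = 0 := fun j => by
    refine Finset.sum_eq_zero fun u _ => ?_
    rcases u with a | a
    · simp [χ, hXr a]
    · rw [DihedralGroup.inv_sr, sr_mul_sr]
      simp [χ, hXr _]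
  have hone : ∀ j, sr j ∈ X → j = i := by
    intro j hj
    by_contra hji
    have h0 := eq_zero_of_sr hT hP hc hz (x := j - i) (sub_ne_zero.mpr hji)
    have h1 := (Finset.sum_eq_zero_iff.mp h0) (sr i) (Finset.mem_univ _)
    rw [DihedralGroup.inv_sr, sr_mul_r, add_sub_cancel] at h1
    simp [χ, hj, show sr i ∈ X from Rel.refl _] at h1
  let H : Subgroup (DihedralGroup m) :=
    { carrier := {1, sr i}
      mul_mem' := by rintro _ _ (rfl | rfl) (rfl | rfl) <;> simp [← DihedralGroup.one_def]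
      one_mem' := Or.inl rfl
      inv_mem' := by rintro _ (rfl | rfl) <;> simp }
  have hH : InvSet Γ (H : Set (DihedralGroup m)) := by
    rintro k hk h0 y (rfl | rfl)
    · exact Or.inl h0
    · right
      have hk' : k (sr i) ∈ X := ⟨k, hk, h0, rfl⟩
      show k (sr i) = sr i
      rcases hku : k (sr i) with a | a
      · exact absurd (hku ▸ hk') (hXr a)
      · rw [hone a (hku ▸ hk')]
  rcases hP H hH with h1 | h1
  · have : sr i ∈ H := Or.inr rfl
    rw [h1, Subgroup.mem_bot, DihedralGroup.one_def] at this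
    cases this
  · haveI : Fact (1 < m) := ⟨hm⟩
    have : r 1 ∈ H := h1 ▸ Subgroup.mem_top _
    rcases this with h2 | h2
    · exact one_ne_zero (DihedralGroup.r.inj (h2.trans DihedralGroup.one_def))
    · simp at h2

include hT hP in
/-- Every invariant function is symmetric. -/
theorem symm {R : Type*} [AddGroup R] {φ : DihedralGroup m → R} (hφ : Inv Γ φ) (u : DihedralGroup m) :
    φ u⁻¹ = φ u := by
  rcases u with x | i
  · rcases eq_or_ne x 0 with rfl | hx
    · simp
    · exact sub_eq_zero.mp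
        (eq_zero_of_sr hT hP (Inv.comp₂ (Inv.comp_inv hT hφ) hφ fun a b => a - b)
          (fun j => by simp) hx)
  · rw [DihedralGroup.inv_sr]

include hT hP in
theorem symm_r {R : Type*} [AddGroup R] {φ : DihedralGroup m → R} (hφ : Inv Γ φ) (x : ZMod m) :
    φ (r (-x)) = φ (r x) := symm hT hP hφ (r x)

include hT hP in
/-- Invariant functions are determined by their values on rotations. -/
theorem ext_r (hm : 2 ≤ m) {R : Type*} [AddGroup R] {φ ψ : DihedralGroup m → R} (hφ : Inv Γ φ)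
    (hψ : Inv Γ ψ) (h : ∀ x, φ (r x) = ψ (r x)) (u : DihedralGroup m) : φ u = ψ u :=
  sub_eq_zero.mp (eq_zero_of_r hT hP hm (Inv.comp₂ hφ hψ fun a b => a - b) (fun x => by simp [h x]) u)

include hT hP in
/-- A translation stabilising a function gives an invariant equivalence. -/
theorem const_of_left {R : Type*} {φ : DihedralGroup m → R} (hφ : Inv Γ φ) {d₀ : DihedralGroup m}
    (hd : d₀ ≠ 1) (h : ∀ w, φ (d₀ * w) = φ w) (u : DihedralGroup m) : φ u = φ 1 := by
  let H : Subgroup (DihedralGroup m) :=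
    { carrier := {d | ∀ w, φ (d * w) = φ w}
      mul_mem' := fun {a b} ha hb w => by rw [mul_assoc, ha, hb]
      one_mem' := fun w => by rw [one_mul]
      inv_mem' := fun {a} ha w => by
        have := ha (a⁻¹ * w)
        rw [mul_inv_cancel_left] at this
        exact this.symm }
  have hH : InvSet Γ (H : Set (DihedralGroup m)) := by
    intro k hk h0 d hdH
    have key : ∀ w, φ ((k d)⁻¹ * w) = φ w := by
      intro w
      obtain ⟨w, rfl⟩ := k.surjective w
      obtain ⟨j, hj, hj0, hjx⟩ := exists_shift hT hk d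
      have h1 := hjx (d⁻¹ * w)
      rw [mul_inv_cancel_left] at h1
      rw [← h1, hφ j hj hj0, hφ k hk h0]
      have := hdH (d⁻¹ * w)
      rw [mul_inv_cancel_left] at this
      exact this.symm
    intro w
    have := key (k d * w)
    rw [inv_mul_cancel_left] at this
    exact this.symm
  rcases hP H hH with h1 | h1
  · exact absurd (Subgroup.mem_bot.mp (h1 ▸ (show d₀ ∈ H from h))) hd
  · simpa using (show u ∈ H from h1 ▸ Subgroup.mem_top _) 1

end Prim

end CfsgLib.DihedralB58
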