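import Cfsg.Agent.DihedralB58.Order

/-!
A rational function with periodic reflection part is trivial, and a rational set with periodic
rotation part gives a two-eigenvalue relation.
-/

set_option autoImplicit false

namespace CfsgLib.DihedralB58

open Equiv DihedralGroup

variable {m q : ℕ} [NeZero m] [hq : Fact q.Prime] {Γ : Subgroup (Perm (DihedralGroup m))}
  (hT : HasTrans Γ) (hP : Prim Γ)

include hT hP in
/-- A rational function with periodic reflection part is constant away from the identity. -/
theorem eq_of_sr_shift (hqm : q ∣ m) {R : Type*} {φ : DihedralGroup m → R} (hφ : Rational Γ φ)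
    (hs : ∀ i, φ (sr (i + zq m q)) = φ (sr i)) {u : DihedralGroup m} (hu : u ≠ 1) :
    φ u = φ (r (zq m q)) := by
  classical
  haveI : Fact (1 < q) := ⟨hq.out.one_lt⟩
  set z := zq m q with hz
  set v := φ (r z)
  let f : DihedralGroup m → ZMod q := fun u => if u = 1 then 1 else if φ u = v then 1 else 0
  have hf : Rational Γ f := (hφ.comp fun a => if a = v then (1 : ZMod q) else 0).ite_one 1
  have hne : ∀ i : ZMod m, (sr i : DihedralGroup m) ≠ 1 := fun i h => by cases h
  have hr1 : ∀ x : ZMod m, (r x : DihedralGroup m) = 1 ↔ x = 0 := fun x =>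
    ⟨fun h => DihedralGroup.r.inj (h.trans DihedralGroup.one_def), fun h => h ▸ rfl⟩
  have hfs : ∀ i, f (sr (i + z)) = f (sr i) := fun i => by simp [f, hne, hs i]
  have hB : bPart f * bBar f = 0 := by
    refine periodic_mul_eq_zero hqm (fun y => ?_) hfs
    rw [neg_add, ← hfs (-y + -z), neg_add_cancel_right]
  have hsym := symm_r hT hP hf.1
  have hF : Inv Γ (cpow f q) := Inv.cpow hT hf.1 q
  have hfib : ∀ x : ZMod m, x ≠ 0 → ∑ y ∈ Finset.univ.filter (fun y => q • y = x), f (r y) = 0 :=
    fun x hx => by
      rw [← (cpow_prime_of_sq_zero hsym hB x).2]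
      exact eq_zero_of_sr hT hP hF (fun i => (cpow_prime_of_sq_zero hsym hB i).1) hx
  have hker : ∀ y : ZMod m, q • y = 0 → f (r y) = 1 := by
    intro y hy
    by_cases h0 : y = 0
    · simp [f, h0]
    · have : φ (r y) = v := hφ.eq_of_order (eq_nsmul_of_lcm hqm hy h0)
      simp [f, hr1, h0, this]
  have hshift : ∀ y : ZMod m, f (r (y + z)) = f (r y) := by
    intro y
    by_cases hy : q • y = 0
    · rw [hker y hy, hker _ (by rw [smul_add, hy, hz, nsmul_zq hqm, add_zero])]
    · have h01 : ∀ w, f (r w) = 0 ∨ f (r w) = 1 := fun w => by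
        simp only [f]
        split_ifs <;> simp
      set n := ((Finset.range q).filter fun j => f (r (y + j • z)) = 1).card with hn
      have h1 : ((n : ℕ) : ZMod q) = 0 := by
        rw [← hfib _ hy, sum_fiber hqm rfl, hn, Finset.natCast_card_filter]
        refine Finset.sum_congr rfl fun j _ => ?_
        rcases h01 (y + j • z) with h | h <;> rw [h] <;> simp
      have hle : n ≤ q := (Finset.card_filter_le _ _).trans (Finset.card_range q).le
      rw [ZMod.natCast_eq_zero_iff] at h1
      have hj1 : 1 ∈ Finset.range q := Finset.mem_range.mpr hq.out.one_lt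
      have hj0 : 0 ∈ Finset.range q := Finset.mem_range.mpr hq.out.pos
      rcases Nat.eq_zero_or_pos n with h2 | h2
      · have h3 := Finset.filter_eq_empty_iff.mp (Finset.card_eq_zero.mp (hn ▸ h2))
        have e0 := (h01 y).resolve_right (by simpa using h3 hj0)
        have e1 := (h01 (y + z)).resolve_right (by simpa using h3 hj1)
        rw [e0, e1]
      · have h2' : n = q := le_antisymm hle (Nat.le_of_dvd h2 h1)
        have h3 := Finset.card_filter_eq_iff.mp (by rw [← hn, h2', Finset.card_range])
        have e0 := h3 0 hj0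
        have e1 := h3 1 hj1
        simp only [zero_smul, add_zero, one_smul] at e0 e1
        rw [e0, e1]
  have hleft : ∀ w, f (r z * w) = f w := by
    rintro (x | i)
    · rw [r_mul_r, add_comm, hshift]
    · rw [r_mul_sr, ← hfs (i - z), sub_add_cancel]
  have h1 := const_of_left hT hP hf.1 (fun h => zq_ne_zero hqm ((hr1 z).mp h)) hleft u
  by_contra hne'
  simp [f, hu, hne'] at h1

/-- The number of rotations of a set. -/
def rSum (Z : DihedralGroup m → ℤ) : ℤ := ∑ x, Z (r x)

/-- The number of reflections of a set. -/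
def sSum (Z : DihedralGroup m → ℤ) : ℤ := ∑ x, Z (sr x)

/-- All coefficients equal to one. -/
noncomputable def allOne (m : ℕ) [NeZero m] : AddMonoidAlgebra ℤ (ZMod m) := mk fun _ => 1

theorem mul_allOne (f : ZMod m → ℤ) : mk f * allOne m = (∑ x, f x) • allOne m := by
  ext x
  rw [allOne, mk_mul, AddMonoidAlgebra.coeff_smul, Finsupp.smul_apply, coeff_mk]
  simp

include hT hP in
/-- The square of a rational set with periodic rotation part. -/
theorem square_of_r_shift (hm : 2 ≤ m) (hqm : q ∣ m) {Z : DihedralGroup m → ℤ} (hZ : Rational Γ Z)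
    (h01 : ∀ u, Z u = 0 ∨ Z u = 1) (hr : ∀ x, Z (r (x + zq m q)) = Z (r x)) :
    let e := rSum Z + sSum Z - (rSum Z - sSum Z) ^ 2
    2 * rSum Z * sSum Z = m * e ∧
      aPart Z * aPart Z + bPart Z * bBar Z = (rSum Z - sSum Z) ^ 2 • 1 + e • allOne m ∧
      2 • (aPart Z * bPart Z) = e • allOne m := by
  classical
  intro e
  set z := zq m q
  set W := conv Z Z with hW
  have hWs : ∀ i, W (sr (i + z)) = W (sr i) := fun i => by
    simp only [hW, conv_sr]
    congr 1
    · rw [← Equiv.sum_comp (Equiv.subRight z)]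
      refine Finset.sum_congr rfl fun j _ => ?_
      simp only [Equiv.subRight_apply]
      congr 1
      · rw [← hr (j - z), sub_add_cancel]
      · congr 2
        abel
    · refine Finset.sum_congr rfl fun j _ => ?_
      congr 1
      rw [← hr (i - j)]
      congr 2
      abel
  have hWr : Rational Γ W := hZ.conv hT hP hm hZ
  set v := W (r z)
  have hv : ∀ u, u ≠ 1 → W u = v := fun u hu => eq_of_sr_shift hT hP hqm hWr hWs hu
  have hne : ∀ i : ZMod m, (sr i : DihedralGroup m) ≠ 1 := fun i h => by cases h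
  have hr1 : ∀ x : ZMod m, (r x : DihedralGroup m) = 1 ↔ x = 0 := fun x =>
    ⟨fun h => DihedralGroup.r.inj (h.trans DihedralGroup.one_def), fun h => h ▸ rfl⟩
  have hW1 : W 1 = rSum Z + sSum Z := by
    rw [hW, conv_self_one hT hP hZ.1, sum_split]
    congr 1 <;> refine Finset.sum_congr rfl fun x _ => ?_
    · rcases h01 (r x) with h | h <;> simp [h]
    · rcases h01 (sr x) with h | h <;> simp [h]
  have hsum_r : ∑ x, W (r x) = rSum Z + sSum Z + (m - 1) * v := by
    rw [← Finset.add_sum_erase _ _ (Finset.mem_univ (0 : ZMod m))]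
    rw [Finset.sum_congr rfl fun x hx => hv (r x) fun h => (Finset.mem_erase.mp hx).1 ((hr1 x).mp h)]
    rw [show (r 0 : DihedralGroup m) = 1 from rfl, hW1, Finset.sum_const, nsmul_eq_mul,
      Finset.card_erase_of_mem (Finset.mem_univ _), Finset.card_univ, ZMod.card,
      Nat.cast_sub (by omega : 1 ≤ m), Nat.cast_one]
  have hsum_s : ∑ x, W (sr x) = m * v := by
    rw [Finset.sum_congr rfl fun x _ => hv (sr x) (hne x), Finset.sum_const, nsmul_eq_mul,
      Finset.card_univ, ZMod.card]
  have hdec_r : ∑ x, W (r x) = rSum Z * rSum Z + sSum Z * sSum Z := by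
    simp only [hW, conv_r, Finset.sum_add_distrib]
    rw [Finset.sum_comm, Finset.sum_comm (f := fun i j => Z (sr j) * Z (sr (j + i)))]
    simp only [← Finset.mul_sum, rSum, sSum]
    congr 1 <;> rw [Finset.sum_mul] <;> refine Finset.sum_congr rfl fun j _ => congrArg _ ?_
    · exact Equiv.sum_comp (Equiv.subRight j) fun x => Z (r x)
    · exact Equiv.sum_comp (Equiv.addLeft j) fun x => Z (sr x)
  have hdec_s : ∑ x, W (sr x) = 2 * rSum Z * sSum Z := by
    simp only [hW, conv_sr, Finset.sum_add_distrib]
    rw [Finset.sum_comm, Finset.sum_comm (f := fun i j => Z (sr j) * Z (r (i - j)))]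
    simp only [← Finset.mul_sum]
    have e1 : ∀ j, ∑ i, Z (sr (i + j)) = sSum Z := fun j =>
      Equiv.sum_comp (Equiv.addRight j) fun x => Z (sr x)
    have e2 : ∀ j, ∑ i, Z (r (i - j)) = rSum Z := fun j =>
      Equiv.sum_comp (Equiv.subRight j) fun x => Z (r x)
    simp only [e1, e2, ← Finset.sum_mul]
    show rSum Z * sSum Z + sSum Z * rSum Z = _
    ring
  have hve : v = e := by
    have h1 := hdec_r.symm.trans hsum_r
    have h2 := hdec_s.symm.trans hsum_s
    show v = rSum Z + sSum Z - (rSum Z - sSum Z) ^ 2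
    linear_combination h1 - h2
  refine ⟨by rw [← hdec_s, hsum_s, hve], ?_, ?_⟩
  · have h : aPart W = aPart Z * aPart Z + bPart Z * bBar Z := by
      have := congrArg (fun M : Matrix (Fin 2) (Fin 2) _ => M 0 0) (toMat_conv Z Z)
      simpa [toMat, Matrix.mul_apply, Fin.sum_univ_two, ← hW] using this
    rw [← h]
    ext x
    rcases eq_or_ne x 0 with rfl | hx
    · simp only [aPart, coeff_mk, allOne, AddMonoidAlgebra.coeff_add, AddMonoidAlgebra.coeff_smul,
        Finsupp.add_apply, Finsupp.smul_apply, AddMonoidAlgebra.one_def, AddMonoidAlgebra.coeff_single,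
        Finsupp.single_eq_same, smul_eq_mul, mul_one]
      rw [show (r 0 : DihedralGroup m) = 1 from rfl, hW1]
      show _ = (rSum Z - sSum Z) ^ 2 + (rSum Z + sSum Z - (rSum Z - sSum Z) ^ 2)
      ring
    · simp only [aPart, coeff_mk, allOne, AddMonoidAlgebra.coeff_add, AddMonoidAlgebra.coeff_smul,
        Finsupp.add_apply, Finsupp.smul_apply, AddMonoidAlgebra.one_def, AddMonoidAlgebra.coeff_single,
        Finsupp.single_eq_of_ne hx, smul_eq_mul, mul_one, mul_zero, zero_add]
      rw [hv _ fun h => hx ((hr1 x).mp h), hve]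
  · have h : bPart W = 2 • (aPart Z * bPart Z) := by
      have := congrArg (fun M : Matrix (Fin 2) (Fin 2) _ => M 0 1) (toMat_conv Z Z)
      simp [toMat, Matrix.mul_apply, Fin.sum_univ_two, symm_r hT hP hZ.1, ← hW] at this
      rw [this, two_smul]
      simp [aPart, mul_comm]
    rw [← h]
    ext x
    rw [bPart, allOne, AddMonoidAlgebra.coeff_smul, Finsupp.smul_apply, coeff_mk, coeff_mk,
      hv _ (hne _), hve, smul_eq_mul, mul_one]

end CfsgLib.DihedralB58
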