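import Cfsg.Agent.DihedralB58.Two
import Cfsg.Agent.SRing54.Schur

/-!
Dihedral groups are B-groups.
-/

set_option autoImplicit false

namespace CfsgLib.DihedralB58

open Equiv DihedralGroup
open scoped Pointwise

variable {m : ℕ} [NeZero m] {Γ : Subgroup (Perm (DihedralGroup m))}
  (hT : HasTrans Γ) (hP : Prim Γ)

omit [NeZero m] in
theorem order_add_two [NeZero m] (h2 : 2 ∣ m) {a : ℕ} {y : ZMod m} (hy : 2 ^ a • y = 0)
    (hy2 : 2 • y ≠ 0) : addOrderOf (y + zq m 2) = addOrderOf y := by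
  haveI : Fact (Nat.Prime 2) := ⟨Nat.prime_two⟩
  have hpow : ∀ w : ZMod m, 2 ^ a • w = 0 → 2 • w ≠ 0 → 2 ∣ addOrderOf w := by
    intro w hw hw2
    obtain ⟨k, -, hk⟩ := (Nat.dvd_prime_pow Nat.prime_two).mp (addOrderOf_dvd_of_nsmul_eq_zero hw)
    rcases k with _ | k
    · rw [pow_zero, AddMonoid.addOrderOf_eq_one_iff] at hk
      exact absurd (by rw [hk, smul_zero]) hw2
    · exact hk ▸ dvd_pow_self 2 (by omega)
  have hz : 2 • (y + zq m 2) ≠ 0 := by rw [smul_add, nsmul_zq h2, add_zero]; exact hy2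
  have ha : 2 ^ a • (y + zq m 2) = 0 := by
    rcases a with _ | a
    · exact absurd (by rw [pow_zero, one_smul] at hy; rw [hy, smul_zero]) hy2
    · rw [smul_add, hy, zero_add, pow_succ, mul_smul, nsmul_zq h2, smul_zero]
  have := lcm_order_add (q := 2) h2 y
  rwa [Nat.lcm_eq_left (hpow _ ha hz), Nat.lcm_eq_left (hpow _ hy hy2)] at this

include hT hP in
/-- Every rational function is constant away from the identity. -/
theorem const_of_rational (hm : 2 ≤ m) {R : Type*} {φ : DihedralGroup m → R} (hφ : Rational Γ φ)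
    {u : DihedralGroup m} (hu : u ≠ 1) : φ u = φ (r 1) := by
  classical
  haveI : Fact (Nat.Prime 2) := ⟨Nat.prime_two⟩
  set v := φ (r 1) with hv
  let f : DihedralGroup m → ℤ := fun u => if φ u = v then 1 else 0
  have hf : Rational Γ f := hφ.comp fun a => if a = v then (1 : ℤ) else 0
  have hf01 : ∀ u, f u = 0 ∨ f u = 1 := fun u => by simp only [f]; split_ifs <;> simp
  have hr1 : ∀ y : ZMod m, (r y : DihedralGroup m) = 1 ↔ y = 0 := fun y =>
    ⟨fun h => DihedralGroup.r.inj (h.trans DihedralGroup.one_def), fun h => h ▸ rfl⟩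
  suffices hall : ∀ y : ZMod m, y ≠ 0 → f (r y) = 1 by
    have h := ext_r hT hP hm (inv_ite_one hf.1 (1 : ℤ))
      (ψ := fun _ => (1 : ℤ)) (fun k _ _ x => rfl) (fun y => by
        by_cases hy : y = 0
        · simp [hy]
        · simp only [hr1, hy, if_false]
          exact hall y hy) u
    simp only [hu, if_false, f] at h
    by_contra hne
    rw [if_neg hne] at h
    exact zero_ne_one h
  obtain ⟨a, l, hodd, hml⟩ := Nat.exists_eq_two_pow_mul_odd (n := m) (NeZero.ne m)
  haveI : Fact (1 < m) := ⟨hm⟩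
  have hord1 : addOrderOf (1 : ZMod m) = m := ZMod.addOrderOf_one m
  have hsame : 1 ≤ a → ∀ g : DihedralGroup m → ℤ, Rational Γ g →
      (∀ y : ZMod m, 2 ^ a • y ≠ 0 → g (r y) = 0) →
      ∀ y : ZMod m, (if (r (y + zq m 2) : DihedralGroup m) = 1 then g (r (zq m 2)) else g (r (y + zq m 2))) =
        (if (r y : DihedralGroup m) = 1 then g (r (zq m 2)) else g (r y)) := by
    intro ha g hg hgz y
    have h2 : 2 ∣ m := hml ▸ dvd_mul_of_dvd_left (dvd_pow_self 2 (by omega)) l
    simp only [hr1]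
    by_cases hy2 : 2 • y = 0
    · have key : ∀ w : ZMod m, 2 • w = 0 →
          (if w = 0 then g (r (zq m 2)) else g (r w)) = g (r (zq m 2)) := by
        intro w hw
        split_ifs with hw0
        · rfl
        · exact hg.eq_of_order (eq_nsmul_of_lcm h2 hw hw0)
      rw [key y hy2, key _ (by rw [smul_add, hy2, nsmul_zq h2, add_zero])]
    · have hy0 : y ≠ 0 := fun h => hy2 (by rw [h, smul_zero])
      have hy1 : y + zq m 2 ≠ 0 := fun h => hy2 (by
        rw [eq_neg_of_add_eq_zero_left h, smul_neg, nsmul_zq h2, neg_zero])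
      rw [if_neg hy0, if_neg hy1]
      by_cases hya : 2 ^ a • y = 0
      · exact hg.eq_of_order (order_add_two h2 hya hy2)
      · rw [hgz y hya, hgz _]
        obtain ⟨a', rfl⟩ : ∃ i, a = i + 1 := ⟨a - 1, by omega⟩
        rw [smul_add, pow_succ, mul_smul _ _ (zq m 2), nsmul_zq h2, smul_zero, add_zero, ← pow_succ]
        exact hya
  rcases (Nat.eq_or_lt_of_le hodd.pos : 1 = l ∨ 1 < l) with hl | hl
  · -- a cyclic two-group
    subst hl
    rw [mul_one] at hml
    have ha : 1 ≤ a := by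
      rcases a with _ | a
      · simp at hml
        omega
      · omega
    let Z : DihedralGroup m → ℤ := fun u => if u = 1 then f (r (zq m 2)) else f u
    have hZ01 : ∀ u, Z u = 0 ∨ Z u = 1 := fun u => by simp only [Z]; split_ifs <;> exact hf01 _
    have hzero : ∀ y : ZMod m, 2 ^ a • y = 0 := fun y => by
      rw [← hml, nsmul_eq_mul, ZMod.natCast_self, zero_mul]
    intro y hy
    rcases trivial_of_two_power hT hP hm hml (hf.ite_one _) hZ01
        (hsame ha f hf fun w hw => absurd (hzero w) hw) with h | h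
    · have := rSum_eq_zero hZ01 h 1
      simp [Z, hr1, f, hv] at this
    · have := rSum_eq_card hZ01 h y
      simp only [Z, hr1, hy, if_false] at this
      exact this
  · -- a non-trivial odd part
    haveI : NeZero l := ⟨by omega⟩
    have hbig : ∀ y : ZMod m, 2 ^ a • y ≠ 0 → f (r y) = 1 := by
      intro y hy
      obtain ⟨q, hq, hqy, hql⟩ : ∃ q, q.Prime ∧ q ∣ addOrderOf y ∧ q ∣ l := by
        apply Nat.Prime.not_coprime_iff_dvd.mp
        intro hc
        refine hy (addOrderOf_dvd_iff_nsmul_eq_zero.mp (hc.dvd_of_dvd_mul_right ?_))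
        rw [← hml]
        simpa using addOrderOf_dvd_natCard y
      haveI := Fact.mk hq
      have hq2 : q ≠ 2 := by
        rintro rfl
        obtain ⟨k, hk⟩ := hodd
        omega
      have hqm : q ∣ m := hml ▸ dvd_mul_of_dvd_right hql _
      have h1 := eq_of_prime_dvd_order hT hP hm hq2 hqm hf hqy
      have h2 := eq_of_prime_dvd_order hT hP hm hq2 hqm hf (x := (1 : ZMod m)) (by rw [hord1]; exact hqm)
      rw [h1, ← h2]
      simp [f, hv]
    intro y hy
    by_cases hya : 2 ^ a • y = 0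
    swap
    · exact hbig y hya
    have ha : 1 ≤ a := by
      rcases a with _ | a
      · rw [pow_zero, one_smul] at hya
        exact absurd hya hy
      · omega
    have h2 : 2 ∣ m := hml ▸ dvd_mul_of_dvd_left (dvd_pow_self 2 (by omega)) l
    let g : DihedralGroup m → ℤ := fun u => 1 - f u
    have hg : Rational Γ g := hf.comp fun t => 1 - t
    have hgz : ∀ w : ZMod m, 2 ^ a • w ≠ 0 → g (r w) = 0 := fun w hw => by simp [g, hbig w hw]
    let Z : DihedralGroup m → ℤ := fun u => if u = 1 then g (r (zq m 2)) else g u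
    have hZ01 : ∀ u, Z u = 0 ∨ Z u = 1 := fun u => by
      simp only [Z, g]
      split_ifs
      · rcases hf01 (r (zq m 2)) with h | h <;> simp [h]
      · rcases hf01 u with h | h <;> simp [h]
    have hsupp : ∀ w : ZMod m, Z (r w) ≠ 0 → 2 ^ a • w = 0 := by
      intro w hw
      by_contra hne
      have hw0 : w ≠ 0 := fun h => hne (by rw [h, smul_zero])
      simp [Z, hr1, hw0, hgz w hne] at hw
    have h := rSum_eq_zero_of_pure hT hP hm h2 hml hodd hl (hg.ite_one _) hZ01 (hsame ha g hg hgz) hsupp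
    have := rSum_eq_zero hZ01 h y
    simp [Z, hr1, hy, g] at this
    omega

include hT hP in
/-- The stabiliser of one is transitive on the other elements. -/
theorem rel_all (hm : 2 ≤ m) {u : DihedralGroup m} (hu : u ≠ 1) : Rel Γ (r 1) u := by
  classical
  haveI : Fact (1 < m) := ⟨hm⟩
  set χ : DihedralGroup m → ℤ := fun w => if w ∈ {w | Rel Γ (r 1) w} then 1 else 0 with hχ
  have hχI : Inv Γ χ := (invSet_rel (Γ := Γ) (r 1)).indicator
  have h01 : ∀ w, χ w = 0 ∨ χ w = 1 := fun w => by simp only [hχ]; split_ifs <;> simp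
  choose ψ hψI hψ01 hψr hψs using fun k : (ZMod m)ˣ => exists_image hT hP hm hχI h01 k.isUnit
  let P : DihedralGroup m → ℤ := fun w => ∑ k, ψ k w
  have hψx : ∀ k : (ZMod m)ˣ, ∀ x, ψ k (r x) = χ (r (((k⁻¹ : (ZMod m)ˣ) : ZMod m) * x)) := fun k x => by
    rw [← hψr k, Units.mul_inv_cancel_left]
  have hPR : Rational Γ P := by
    refine ⟨fun k hk h0 w => Finset.sum_congr rfl fun i _ => hψI i k hk h0 w, fun k hk x => ?_⟩
    show ∑ i, ψ i (r (k * x)) = ∑ i, ψ i (r x)
    rw [← Equiv.sum_comp (Equiv.mulLeft hk.unit)]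
    refine Finset.sum_congr rfl fun i _ => ?_
    rw [hψx, hψx, Equiv.coe_mulLeft, mul_inv_rev, Units.val_mul, mul_assoc]
    rw [← mul_assoc ((hk.unit⁻¹ : (ZMod m)ˣ) : ZMod m), hk.val_inv_mul, one_mul]
  have hr0 : (r 0 : DihedralGroup m) = 1 := rfl
  have hne1 : (r 1 : DihedralGroup m) ≠ 1 := fun h =>
    one_ne_zero (DihedralGroup.r.inj (h.trans DihedralGroup.one_def))
  have hχ0 : χ 1 = 0 := by
    simp only [hχ, Set.mem_setOf_eq]
    exact if_neg fun h => hne1 h.symm.one_left
  have hP1 : P 1 = 0 := Finset.sum_eq_zero fun k _ => by rw [← hr0, hψx, mul_zero, hr0, hχ0]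
  set c := P (r 1) with hc
  have hconst : ∀ w, w ≠ 1 → P w = c := fun w hw => const_of_rational hT hP hm hPR hw
  set U : ℤ := (Fintype.card (ZMod m)ˣ : ℤ)
  have hrs : ∑ x, P (r x) = U * rSum χ := by
    simp only [P]
    rw [Finset.sum_comm]
    have hk : ∀ k : (ZMod m)ˣ, ∑ x, ψ k (r x) = rSum χ := fun k => by
      simp only [hψx]
      exact Equiv.sum_comp (Units.mulLeft k⁻¹) fun x => χ (r x)
    simp [hk, U]
  have htot : ∑ w, P w = U * (rSum χ + sSum χ) := by
    simp only [P]
    rw [Finset.sum_comm]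
    simp only [hψs, sum_split χ, rSum, sSum]
    simp [U]
  have hrs' : ∑ x, P (r x) = ((m : ℤ) - 1) * c := by
    rw [← Finset.add_sum_erase _ _ (Finset.mem_univ (0 : ZMod m)), hr0, hP1, zero_add,
      Finset.sum_congr rfl fun x hx => hconst (r x) fun h => (Finset.mem_erase.mp hx).1
        (DihedralGroup.r.inj (h.trans DihedralGroup.one_def)),
      Finset.sum_const, nsmul_eq_mul, Finset.card_erase_of_mem (Finset.mem_univ _), Finset.card_univ,
      ZMod.card, Nat.cast_sub (by omega : 1 ≤ m), Nat.cast_one]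
  have hsr' : ∑ x, P (sr x) = (m : ℤ) * c := by
    rw [Finset.sum_congr rfl fun x _ => hconst (sr x) (fun h => by cases h),
      Finset.sum_const, nsmul_eq_mul, Finset.card_univ, ZMod.card]
  rw [sum_split P, hrs', hsr'] at htot
  rw [hrs'] at hrs
  have hcU : c = U * (sSum χ - rSum χ) := by linear_combination htot - 2 * hrs
  have hterm : ∀ w, 0 ≤ P w ∧ P w ≤ U := fun w => by
    refine ⟨Finset.sum_nonneg fun k _ => by rcases hψ01 k w with h | h <;> simp [h], ?_⟩
    calc P w ≤ ∑ _k : (ZMod m)ˣ, (1 : ℤ) :=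
          Finset.sum_le_sum fun k _ => by rcases hψ01 k w with h | h <;> simp [h]
      _ = U := by simp [U]
  have hcpos : 0 < c := by
    have h1 : ψ 1 (r 1) = 1 := by
      rw [hψx, inv_one, Units.val_one, one_mul]
      simp only [hχ, Set.mem_setOf_eq]
      exact if_pos (Rel.refl _)
    have : ψ 1 (r 1) ≤ c := Finset.single_le_sum (f := fun k => ψ k (r 1))
      (fun k _ => by rcases hψ01 k (r 1) with h | h <;> simp [h]) (Finset.mem_univ 1)
    omega
  have hU : 0 < U := lt_of_lt_of_le hcpos (hterm _).2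
  have hd : sSum χ - rSum χ = 1 := by
    have h1 : 0 < sSum χ - rSum χ := pos_of_mul_pos_right (hcU ▸ hcpos) hU.le
    have h2 : sSum χ - rSum χ ≤ 1 := le_of_mul_le_mul_left (by rw [← hcU, mul_one]; exact (hterm _).2) hU
    omega
  rw [hd, mul_one] at hcU
  have hall : ∀ k, ψ k u = 1 := by
    intro k
    have h0 : ∑ k, (1 - ψ k u) = 0 := by
      rw [Finset.sum_sub_distrib, show (∑ k, ψ k u) = c from hconst u hu, hcU]
      simp [U]
    have := (Finset.sum_eq_zero_iff_of_nonneg fun k _ => by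
      rcases hψ01 k u with h | h <;> simp [h]).mp h0 k (Finset.mem_univ k)
    omega
  have h1 := ext_r hT hP hm (hψI 1) hχI (fun x => by rw [hψx, inv_one, Units.val_one, one_mul]) u
  rw [hall 1] at h1
  by_contra hne
  simp [hχ, hne] at h1

section Action

variable {G Ω : Type*} [Group G] [MulAction G Ω] (ρ : DihedralGroup m →* G)
  (e : DihedralGroup m ≃ Ω) (he : ∀ d x, e (d * x) = ρ d • e x)

include he in
theorem hasTrans_pull : HasTrans (CfsgLib.SRing54.pullPerm (G := G) e).range :=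
  fun d => ⟨ρ d, Equiv.ext fun x => by
    rw [CfsgLib.SRing54.pullPerm_apply, ← he, e.symm_apply_apply]; rfl⟩

include he in
theorem prim_pull (hprim : MulAction.IsPreprimitive G Ω) :
    Prim (CfsgLib.SRing54.pullPerm (G := G) e).range := by
  intro H hH
  set π := CfsgLib.SRing54.pullPerm (G := G) e
  have hcong : ∀ g x y, (π g x)⁻¹ * π g y ∈ H ↔ x⁻¹ * y ∈ H := by
    intro g x y
    obtain ⟨j, hj, hj0, hjx⟩ := exists_shift (hasTrans_pull ρ e he) (k := π g) ⟨g, rfl⟩ x
    have h1 := hjx (x⁻¹ * y)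
    rw [mul_inv_cancel_left] at h1
    rw [← h1]
    exact hH.mem_iff hj hj0 _
  have hB : MulAction.IsBlock G (e '' (H : Set (DihedralGroup m))) := by
    rw [MulAction.isBlock_iff_smul_eq_or_disjoint]
    intro g
    by_cases hd : Disjoint (g • e '' (H : Set (DihedralGroup m))) (e '' (H : Set (DihedralGroup m)))
    · exact Or.inr hd
    left
    rw [Set.not_disjoint_iff] at hd
    obtain ⟨_, ⟨_, ⟨x, hx, rfl⟩, hgx⟩, y, hy, rfl⟩ := hd
    have hxy : π g x = y := by rw [CfsgLib.SRing54.pullPerm_apply]; exact e.symm_apply_eq.mpr hgx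
    have key : ∀ w, π g w ∈ H ↔ w ∈ H := fun w => by
      rw [← H.mul_mem_cancel_left (H.inv_mem hy), ← hxy, hcong, H.mul_mem_cancel_left (H.inv_mem hx)]
    ext ω
    obtain ⟨z, rfl⟩ := e.surjective ω
    obtain ⟨w, rfl⟩ := (π g).surjective z
    simp only [π, CfsgLib.SRing54.pullPerm_apply, e.apply_symm_apply, Set.smul_mem_smul_set_iff]
    constructor
    · rintro ⟨w', hw', hww⟩
      rw [e.injective hww] at hw'
      exact ⟨π g w, (key w).mpr hw', by rw [CfsgLib.SRing54.pullPerm_apply, e.apply_symm_apply]⟩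
    · rintro ⟨w', hw', hww⟩
      refine ⟨w, (key w).mp ?_, rfl⟩
      rwa [show π g w = w' by rw [CfsgLib.SRing54.pullPerm_apply, ← hww, e.symm_apply_apply]]
  rcases hprim.isTrivialBlock_of_isBlock hB with h | h
  · left
    rw [eq_bot_iff]
    intro x hx
    exact Subgroup.mem_bot.mpr (e.injective (h ⟨x, hx, rfl⟩ ⟨1, one_mem _, rfl⟩))
  · right
    rw [eq_top_iff]
    intro x _
    obtain ⟨y, hy, hyx⟩ := h.symm ▸ Set.mem_univ (e x)
    exact e.injective hyx ▸ hy

include he in
/-- A primitive action with a regular dihedral subgroup is doubly transitive. -/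
theorem two_trans (hprim : MulAction.IsPreprimitive G Ω) (hm : 2 ≤ m) :
    MulAction.IsMultiplyPretransitive G Ω 2 := by
  have hT := hasTrans_pull ρ e he
  have hrel := fun (x y : DihedralGroup m) (hx : x ≠ 1) (hy : y ≠ 1) =>
    (rel_all hT (prim_pull ρ e he hprim) hm hx).symm.trans (rel_all hT (prim_pull ρ e he hprim) hm hy)
  rw [MulAction.is_two_pretransitive_iff]
  intro a b u v hab huv
  obtain ⟨a, rfl⟩ := e.surjective a
  obtain ⟨b, rfl⟩ := e.surjective b
  obtain ⟨u, rfl⟩ := e.surjective u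
  obtain ⟨v, rfl⟩ := e.surjective v
  obtain ⟨_, ⟨g, rfl⟩, hg0, hgx⟩ := hrel (a⁻¹ * b) (u⁻¹ * v)
    (fun h => hab (by rw [inv_mul_eq_one.mp h])) (fun h => huv (by rw [inv_mul_eq_one.mp h]))
  rw [CfsgLib.SRing54.pullPerm_apply, e.symm_apply_eq] at hg0 hgx
  refine ⟨ρ u * g * ρ a⁻¹, ?_, ?_⟩
  · rw [mul_smul, mul_smul, ← he, inv_mul_cancel, hg0, ← he, mul_one]
  · rw [mul_smul, mul_smul, ← he, hgx, ← he, mul_inv_cancel_left]

end Action

end CfsgLib.DihedralB58
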