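import Cfsg.Agent.DihedralB58.Algebra

/-!
Multipliers: integer functions whose rotation part is constant on the unit orbits.
-/

set_option autoImplicit false

namespace CfsgLib.DihedralB58

open Equiv DihedralGroup

variable {m : ℕ} {Γ : Subgroup (Perm (DihedralGroup m))}

/-- An invariant function whose rotation part is fixed by all multipliers. -/
def Rational {R : Type*} (Γ : Subgroup (Perm (DihedralGroup m))) (φ : DihedralGroup m → R) : Prop :=
  Inv Γ φ ∧ ∀ k : ZMod m, IsUnit k → ∀ x, φ (r (k * x)) = φ (r x)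

theorem Rational.comp {R R' : Type*} {φ : DihedralGroup m → R} (hφ : Rational Γ φ) (g : R → R') :
    Rational Γ fun u => g (φ u) :=
  ⟨hφ.1.comp g, fun k hk x => congrArg g (hφ.2 k hk x)⟩

theorem Rational.ite_one {R : Type*} {φ : DihedralGroup m → R} (hφ : Rational Γ φ) (c : R) :
    Rational Γ fun u => if u = 1 then c else φ u := by
  refine ⟨inv_ite_one hφ.1 c, fun k hk x => ?_⟩
  have hx : (r (k * x) : DihedralGroup m) = 1 ↔ (r x : DihedralGroup m) = 1 :=
    ⟨fun h => by rw [hk.mul_right_eq_zero.mp (DihedralGroup.r.inj (h.trans DihedralGroup.one_def)), DihedralGroup.one_def],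
      fun h => by rw [DihedralGroup.r.inj (h.trans DihedralGroup.one_def), mul_zero, DihedralGroup.one_def]⟩
  simp only [hx, hφ.2 k hk x]

variable [NeZero m] (hT : HasTrans Γ) (hP : Prim Γ)

theorem filter_smul {p : ℕ} {k : ZMod m} (hk : IsUnit k) (hpk : (p : ZMod m) = k) (x : ZMod m) :
    (Finset.univ.filter fun y : ZMod m => p • y = k * x) = {x} := by
  ext y
  simp only [Finset.mem_filter, Finset.mem_univ, true_and, Finset.mem_singleton, nsmul_eq_mul, hpk]
  exact hk.mul_right_inj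

theorem cast_eq_of_natAbs_lt {p : ℕ} {a b : ℤ} (h : (a : ZMod p) = b) (hp : (a - b).natAbs < p) :
    a = b :=
  sub_eq_zero.mp (Int.eq_zero_of_dvd_of_natAbs_lt_natAbs
    ((ZMod.intCast_zmod_eq_zero_iff_dvd _ _).mp (by push_cast; rw [h, sub_self])) (by simpa using hp))

include hT hP in
/-- An odd prime power of an invariant function reads the rotations through the multiplier. -/
theorem cpow_prime_mul {p : ℕ} [Fact p.Prime] (hp2 : p ≠ 2) {k : ZMod m} (hk : IsUnit k)
    (hpk : (p : ZMod m) = k) {φ : DihedralGroup m → ZMod p} (hφ : Inv Γ φ) (x : ZMod m) :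
    cpow φ p (r (k * x)) = φ (r x) := by
  rw [cpow_prime_r hp2 (symm_r hT hP hφ), filter_smul hk hpk, Finset.sum_singleton]

include hT hP in
theorem cpow_prime_rational (hm : 2 ≤ m) {p : ℕ} [Fact p.Prime] (hp2 : p ≠ 2) {k : ZMod m}
    (hk : IsUnit k) (hpk : (p : ZMod m) = k) {φ : DihedralGroup m → ZMod p} (hφ : Rational Γ φ) :
    toMat φ ^ p = toMat φ := by
  rw [← toMat_cpow]
  refine congrArg toMat (funext (ext_r hT hP hm (Inv.cpow hT hφ.1 p) hφ.1 fun x => ?_))
  obtain ⟨x, rfl⟩ : ∃ y, k * y = x := ⟨hk.unit⁻¹ * x, by simp [← mul_assoc]⟩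
  rw [cpow_prime_mul hT hP hp2 hk hpk hφ.1, hφ.2 k hk]

include hT hP in
/-- The convolution of rational functions is rational. -/
theorem Rational.conv (hm : 2 ≤ m) {φ ψ : DihedralGroup m → ℤ} (hφ : Rational Γ φ)
    (hψ : Rational Γ ψ) : Rational Γ (CfsgLib.DihedralB58.conv φ ψ) := by
  refine ⟨Inv.conv hT hφ.1 hψ.1, fun k hk x => ?_⟩
  set h := CfsgLib.DihedralB58.conv φ ψ with hh
  obtain ⟨p, hp2, hp, hpk⟩ := Nat.forall_exists_prime_gt_and_eq_mod hk
    ((h (r (k * x)) - h (r x)).natAbs + 2)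
  haveI := Fact.mk hp
  refine cast_eq_of_natAbs_lt (p := p) ?_ (by omega)
  let φp : DihedralGroup m → ZMod p := fun u => (φ u : ZMod p)
  let ψp : DihedralGroup m → ZMod p := fun u => (ψ u : ZMod p)
  let hpf : DihedralGroup m → ZMod p := CfsgLib.DihedralB58.conv φp ψp
  have hcast : ∀ u, (h u : ZMod p) = hpf u := fun u => by
    simp [hh, hpf, φp, ψp, CfsgLib.DihedralB58.conv, Int.cast_sum]
  have hφp : Rational Γ φp := hφ.comp _
  have hψp : Rational Γ ψp := hψ.comp _
  have h1 : toMat hpf ^ p = toMat hpf := by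
    rw [toMat_conv, (commute_toMat hT hP hφp.1 hψp.1).mul_pow,
      cpow_prime_rational hT hP hm (by omega) hk hpk hφp,
      cpow_prime_rational hT hP hm (by omega) hk hpk hψp]
  have h2 := cpow_prime_mul hT hP (by omega) hk hpk (Inv.conv hT hφp.1 hψp.1) x
  rw [eq_of_toMat ((toMat_cpow hpf p).trans h1)] at h2
  rw [hcast, hcast]
  exact h2

include hT hP in
/-- The multiplier image of an invariant set, with the same number of points. -/
theorem exists_image (hm : 2 ≤ m) {χ : DihedralGroup m → ℤ} (hχ : Inv Γ χ)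
    (h01 : ∀ u, χ u = 0 ∨ χ u = 1) {k : ZMod m} (hk : IsUnit k) :
    ∃ ψ : DihedralGroup m → ℤ, Inv Γ ψ ∧ (∀ u, ψ u = 0 ∨ ψ u = 1) ∧
      (∀ x, ψ (r (k * x)) = χ (r x)) ∧ ∑ u, ψ u = ∑ u, χ u := by
  classical
  obtain ⟨p, hpbig, hp, hpk⟩ := Nat.forall_exists_prime_gt_and_eq_mod hk (4 * m + 2)
  haveI := Fact.mk hp
  let χp : DihedralGroup m → ZMod p := fun u => (χ u : ZMod p)
  have hχp : Inv Γ χp := hχ.comp _
  have hI : Inv Γ (cpow χp p) := Inv.cpow hT hχp p
  have hr : ∀ x, cpow χp p (r (k * x)) = χp (r x) := cpow_prime_mul hT hP (by omega) hk hpk hχp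
  let ψ : DihedralGroup m → ℤ := fun u => if cpow χp p u = 1 then 1 else 0
  have hψI : Inv Γ ψ := hI.comp fun a => if a = 1 then (1 : ℤ) else 0
  have hψr : ∀ x, ψ (r (k * x)) = χ (r x) := fun x => by
    simp only [ψ, hr, χp]
    rcases h01 (r x) with h | h <;> simp [h]
  have hψp : ∀ u, (ψ u : ZMod p) = cpow χp p u := by
    refine ext_r hT hP hm (hψI.comp _) hI fun x => ?_
    obtain ⟨x, rfl⟩ : ∃ y, k * y = x := ⟨hk.unit⁻¹ * x, by simp [← mul_assoc]⟩
    show (ψ (r (k * x)) : ZMod p) = _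
    rw [hψr, hr]
  refine ⟨ψ, hψI, fun u => by by_cases h : cpow χp p u = 1 <;> simp [ψ, h], hψr, ?_⟩
  have hψ01 : ∀ u, ψ u * ψ u = ψ u := fun u => by by_cases h : cpow χp p u = 1 <;> simp [ψ, h]
  have hχ01 : ∀ u, χ u * χ u = χ u := fun u => by rcases h01 u with h | h <;> simp [h]
  have e1 : conv (cpow χp p) (cpow χp p) 1 = conv χp χp 1 := by
    have hc : toMat (conv (cpow χp p) (cpow χp p)) = toMat (cpow (conv χp χp) p) := by
      rw [toMat_conv, toMat_cpow, toMat_cpow, toMat_conv, (Commute.refl _).mul_pow]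
    rw [eq_of_toMat hc, DihedralGroup.one_def, ← mul_zero k,
      cpow_prime_mul hT hP (by omega) hk hpk (Inv.conv hT hχp hχp), mul_zero]
  rw [conv_self_one hT hP hI, conv_self_one hT hP hχp] at e1
  have hb : ∀ f : DihedralGroup m → ℤ, (∀ u, f u = 0 ∨ f u = 1) →
      0 ≤ ∑ u, f u ∧ ∑ u, f u ≤ 2 * m := fun f hf => by
    refine ⟨Finset.sum_nonneg fun u _ => by rcases hf u with h | h <;> simp [h], ?_⟩
    calc ∑ u, f u ≤ ∑ _u : DihedralGroup m, (1 : ℤ) :=
          Finset.sum_le_sum fun u _ => by rcases hf u with h | h <;> simp [h]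
      _ = 2 * m := by simp [DihedralGroup.card]
  have hb1 := hb ψ fun u => by by_cases h : cpow χp p u = 1 <;> simp [ψ, h]
  have hb2 := hb χ h01
  refine cast_eq_of_natAbs_lt (p := p) ?_ (by omega)
  push_cast
  rw [← Finset.sum_congr rfl fun u _ => show (ψ u * ψ u : ZMod p) = ψ u by exact_mod_cast congrArg (Int.cast (R := ZMod p)) (hψ01 u),
    ← Finset.sum_congr rfl fun u _ => show (χ u * χ u : ZMod p) = χ u by exact_mod_cast congrArg (Int.cast (R := ZMod p)) (hχ01 u)]
  simp only [hψp]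
  exact e1

end CfsgLib.DihedralB58
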