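import Cfsg.Agent.DihedralB58.Core

/-!
The odd prime case: rotations of order divisible by an odd prime lie in one rational set.
-/

set_option autoImplicit false

namespace CfsgLib.DihedralB58

open Equiv DihedralGroup

variable {m q : ℕ} [NeZero m] [hq : Fact q.Prime] {Γ : Subgroup (Perm (DihedralGroup m))}
  (hT : HasTrans Γ) (hP : Prim Γ)

theorem allOne_mul_allOne : allOne m * allOne m = (m : ℤ) • allOne m := by
  have := mul_allOne (m := m) fun _ => (1 : ℤ)
  simpa [allOne] using this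

theorem le_of_periodic_square (hqm : q ∣ m) {G : AddMonoidAlgebra ℤ (ZMod m)} {c : ℤ} (hc : 0 ≤ c)
    (hper : ∀ y, G.coeff (y + zq m q) = G.coeff y) (hsym : ∀ y, G.coeff (-y) = G.coeff y)
    (hsq : G * G = c • G) : q * G.coeff 0 ≤ c := by
  classical
  have h1 : ∑ y, G.coeff y * G.coeff y = c * G.coeff 0 := by
    have h := congrArg (fun Φ : AddMonoidAlgebra ℤ (ZMod m) => Φ.coeff 0) hsq
    rw [CfsgLib.SRing54.mul_apply_sum, AddMonoidAlgebra.coeff_smul, Finsupp.smul_apply, smul_eq_mul] at h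
    rw [← h]
    exact Finset.sum_congr rfl fun y _ => by rw [zero_sub, hsym]
  have h2 : (q : ℤ) * (G.coeff 0 * G.coeff 0) ≤ ∑ y, G.coeff y * G.coeff y := by
    rw [← Finset.sum_filter_add_sum_filter_not Finset.univ (fun y : ZMod m => q • y = 0),
      sum_fiber hqm (smul_zero q) fun y => G.coeff y * G.coeff y,
      Finset.sum_congr rfl fun j _ =>
        (by rw [zq_shift hper] : G.coeff (0 + j • zq m q) * G.coeff (0 + j • zq m q) = G.coeff 0 * G.coeff 0),
      Finset.sum_const, Finset.card_range, nsmul_eq_mul]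
    exact le_add_of_nonneg_right (Finset.sum_nonneg fun y _ => mul_self_nonneg _)
  rcases le_or_gt (G.coeff 0) 0 with h | h
  · exact le_trans (mul_nonpos_of_nonneg_of_nonpos (by positivity) h) hc
  · exact le_of_mul_le_mul_right (by rw [mul_assoc]; linarith) h

include hT hP in
/-- The basic inequality. -/
theorem inequality (hm : 2 ≤ m) (hqm : q ∣ m) {Z : DihedralGroup m → ℤ} (hZ : Rational Γ Z)
    (h01 : ∀ u, Z u = 0 ∨ Z u = 1) (hr : ∀ x, Z (r (x + zq m q)) = Z (r x)) :
    q * (rSum Z * (m - rSum Z) + (rSum Z - sSum Z) ^ 2) ≤ m * (rSum Z - sSum Z) ^ 2 := by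
  classical
  obtain ⟨he, h1, h2⟩ := square_of_r_shift hT hP hm hqm hZ h01 hr
  set x := rSum Z with hx
  set y := sSum Z with hy
  set e := x + y - (x - y) ^ 2 with hedef
  set d2 := (x - y) ^ 2 with hd2
  set a := aPart Z
  set J := allOne m
  set u := x ^ 2 - d2 with hu
  have haJ : a * J = x • J := mul_allOne _
  have hbJ : bBar Z * J = y • J := mul_allOne _
  have hJJ : J * J = (m : ℤ) • J := allOne_mul_allOne
  have h3 : 2 • (a * a * a) = (2 * d2) • a + (2 * e * x - e * y) • J := by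
    linear_combination (norm := (simp only [smul_eq_mul, zsmul_eq_mul, nsmul_eq_mul, Int.cast_mul,
      Int.cast_sub, Int.cast_ofNat, Nat.cast_ofNat]; ring)) (2 • a) * h1 - bBar Z * h2 + (2 * e) • haJ - e • hbJ
  set G := (m : ℤ) • (a * a) - u • J with hG
  have h4 : 2 • (G * G) = 2 • ((m * d2) • G) := by
    have hnum : (2 * e * x - e * y) * x * (m : ℤ) ^ 2 - 4 * m * u * x ^ 2 + 2 * m * u ^ 2 +
        2 * m * d2 * u = 0 := by
      simp only [hu, hedef, hd2] at he ⊢
      linear_combination (-(2 * x - y) * x * m) * he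
    have hnum' : ((2 * e * x - e * y) * x * (m : ℤ) ^ 2 - 4 * m * u * x ^ 2 + 2 * m * u ^ 2 +
        2 * m * d2 * u) • J = 0 := by rw [hnum, zero_smul]
    linear_combination (norm := (simp only [hG, smul_eq_mul, zsmul_eq_mul, nsmul_eq_mul, Int.cast_mul,
      Int.cast_add, Int.cast_pow, Int.cast_sub, Int.cast_ofNat, Nat.cast_ofNat, Int.cast_natCast]; ring))
      ((m : ℤ) ^ 2 • a) * h3 + ((m : ℤ) ^ 2 * (2 * e * x - e * y)) • haJ
        - (4 * m * u) • (a * haJ) - (4 * m * u * x) • haJ + (2 * u ^ 2) • hJJ + hnum'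
  have h5 : G * G = (m * d2) • G := by
    ext w
    have := congrArg (fun Φ : AddMonoidAlgebra ℤ (ZMod m) => Φ.coeff w) h4
    rw [AddMonoidAlgebra.coeff_smul, AddMonoidAlgebra.coeff_smul, Finsupp.smul_apply, Finsupp.smul_apply,
      nsmul_eq_mul, nsmul_eq_mul, Nat.cast_ofNat] at this
    exact mul_left_cancel₀ two_ne_zero this
  have hGc : ∀ w, G.coeff w = m * (∑ v, Z (r v) * Z (r (w - v))) - u := fun w => by
    rw [hG, AddMonoidAlgebra.coeff_sub, Finsupp.sub_apply, AddMonoidAlgebra.coeff_smul,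
      AddMonoidAlgebra.coeff_smul, Finsupp.smul_apply, Finsupp.smul_apply]
    simp [a, J, aPart, allOne, mk_mul]
  have hper : ∀ w, G.coeff (w + zq m q) = G.coeff w := fun w => by
    rw [hGc, hGc]
    congr 2
    refine Finset.sum_congr rfl fun v _ => ?_
    congr 1
    rw [← hr (w - v)]
    congr 2
    abel
  have hsym : ∀ w, G.coeff (-w) = G.coeff w := fun w => by
    rw [hGc, hGc]
    congr 2
    rw [← Equiv.sum_comp (Equiv.neg (ZMod m))]
    refine Finset.sum_congr rfl fun v _ => ?_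
    simp only [Equiv.neg_apply]
    rw [symm_r hT hP hZ.1, show -w - -v = -(w - v) by abel, symm_r hT hP hZ.1]
  have h0 : G.coeff 0 = m * x - u := by
    rw [hGc]
    congr 2
    refine Finset.sum_congr rfl fun v _ => ?_
    rw [zero_sub, symm_r hT hP hZ.1]
    rcases h01 (r v) with h | h <;> simp [h]
  have h6 := le_of_periodic_square hqm (mul_nonneg (Int.natCast_nonneg m) (sq_nonneg _)) hper hsym h5
  rw [h0, hu] at h6
  rw [show x * (m - x) + d2 = m * x - (x ^ 2 - d2) by ring]
  exact h6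

theorem rSum_eq_zero {Z : DihedralGroup m → ℤ} (h01 : ∀ u, Z u = 0 ∨ Z u = 1) (h : rSum Z = 0)
    (x : ZMod m) : Z (r x) = 0 :=
  (Finset.sum_eq_zero_iff_of_nonneg fun y _ => by rcases h01 (r y) with h | h <;> simp [h]).mp h x
    (Finset.mem_univ x)

theorem rSum_eq_card {Z : DihedralGroup m → ℤ} (h01 : ∀ u, Z u = 0 ∨ Z u = 1) (h : rSum Z = m)
    (x : ZMod m) : Z (r x) = 1 := by
  have h1 : ∑ y : ZMod m, (1 - Z (r y)) = 0 := by
    rw [Finset.sum_sub_distrib]
    simp [rSum] at h ⊢
    omega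
  have := (Finset.sum_eq_zero_iff_of_nonneg fun y _ => by
    rcases h01 (r y) with h | h <;> simp [h]).mp h1 x (Finset.mem_univ x)
  omega

theorem rSum_bounds {Z : DihedralGroup m → ℤ} (h01 : ∀ u, Z u = 0 ∨ Z u = 1) :
    0 ≤ rSum Z ∧ rSum Z ≤ m := by
  refine ⟨Finset.sum_nonneg fun y _ => by rcases h01 (r y) with h | h <;> simp [h], ?_⟩
  calc rSum Z ≤ ∑ _y : ZMod m, (1 : ℤ) :=
        Finset.sum_le_sum fun y _ => by rcases h01 (r y) with h | h <;> simp [h]
    _ = m := by simp

theorem sSum_bounds {Z : DihedralGroup m → ℤ} (h01 : ∀ u, Z u = 0 ∨ Z u = 1) :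
    0 ≤ sSum Z ∧ sSum Z ≤ m := by
  refine ⟨Finset.sum_nonneg fun y _ => by rcases h01 (sr y) with h | h <;> simp [h], ?_⟩
  calc sSum Z ≤ ∑ _y : ZMod m, (1 : ℤ) :=
        Finset.sum_le_sum fun y _ => by rcases h01 (sr y) with h | h <;> simp [h]
    _ = m := by simp

theorem dvd_rSum (hqm : q ∣ m) {Z : DihedralGroup m → ℤ}
    (hr : ∀ x, Z (r (x + zq m q)) = Z (r x)) : (q : ℤ) ∣ rSum Z := by
  rw [← ZMod.intCast_zmod_eq_zero_iff_dvd, rSum, Int.cast_sum]
  exact sum_periodic hqm fun y => congrArg _ (hr y)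

theorem arith_odd {q x m d : ℤ} (hq : 3 ≤ q) (hx0 : 0 ≤ x) (hxm : x ≤ m) (hdx : q ∣ x) (hdm : q ∣ m)
    (hm : 0 < m) (heq : 2 * x * (m - x) = m * d ^ 2 + m * d - 2 * x * d)
    (hineq : q * (x * (m - x) + d ^ 2) ≤ m * d ^ 2) : x = 0 ∨ x = m := by
  by_contra hne
  push_neg at hne
  have hx1 : 0 < x := lt_of_le_of_ne hx0 (Ne.symm hne.1)
  have hx2 : x < m := lt_of_le_of_ne hxm hne.2
  have hp : 0 < x * (m - x) := mul_pos hx1 (by linarith)
  have h1 : q * (m * d ^ 2 + (m - 2 * x) * d + 2 * d ^ 2) ≤ 2 * (m * d ^ 2) := by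
    calc q * (m * d ^ 2 + (m - 2 * x) * d + 2 * d ^ 2) = 2 * (q * (x * (m - x) + d ^ 2)) := by
          linear_combination -q * heq
      _ ≤ _ := by linarith
  have hd0 : d ≠ 0 := by
    rintro rfl
    have : 0 < q * (x * (m - x)) := mul_pos (by linarith) hp
    linarith
  have hbound : ∀ e : ℤ, 0 < e → m * e ^ 2 - m * e + 2 * e ^ 2 ≤ m * d ^ 2 + (m - 2 * x) * d + 2 * d ^ 2 →
      e ^ 2 = d ^ 2 → q * (e - 1) < 2 * e := by
    intro e he hle hee
    by_contra hcon
    have h2 : m * e * (2 * e) ≤ m * e * (q * (e - 1)) :=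
      mul_le_mul_of_nonneg_left (not_lt.mp hcon) (mul_nonneg hm.le he.le)
    have h3 := mul_le_mul_of_nonneg_left hle (show (0 : ℤ) ≤ q by linarith)
    have h4 : 0 < q * e ^ 2 := mul_pos (by linarith) (pow_pos he 2)
    rw [← hee] at h1 h3
    nlinarith
  rcases lt_or_gt_of_ne hd0 with hd | hd
  · have hq' := hbound (-d) (by linarith) (by nlinarith) (by ring)
    have hcase : d = -1 ∨ (d = -2 ∧ q = 3) := by
      have : -d ≤ 2 := by nlinarith
      rcases (show d = -1 ∨ d = -2 by omega) with rfl | rfl <;> omega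
    rcases hcase with rfl | ⟨rfl, rfl⟩
    · have : x * (m - x - 1) = 0 := by linarith
      have hmx : m - x = 1 := by rcases mul_eq_zero.mp this with h | h <;> omega
      have := Int.le_of_dvd one_pos (hmx ▸ dvd_sub hdm hdx)
      omega
    · obtain ⟨x', rfl⟩ := hdx
      obtain ⟨m', rfl⟩ := hdm
      have h5 : (m' - x' - 1) * (3 * x' - 1) = 1 := by linarith
      rcases Int.eq_one_or_neg_one_of_mul_eq_one (mul_comm (m' - x' - 1) _ ▸ h5) with h | h <;> omega
  · have hq' := hbound d hd (by nlinarith) rfl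
    have hcase : d = 1 ∨ (d = 2 ∧ q = 3) := by
      have : d ≤ 2 := by nlinarith
      rcases (show d = 1 ∨ d = 2 by omega) with rfl | rfl <;> omega
    rcases hcase with rfl | ⟨rfl, rfl⟩
    · have : (x - 1) * (m - x) = 0 := by linarith
      have hx : x = 1 := by rcases mul_eq_zero.mp this with h | h <;> omega
      have := Int.le_of_dvd one_pos (hx ▸ hdx)
      omega
    · obtain ⟨x', rfl⟩ := hdx
      obtain ⟨m', rfl⟩ := hdm
      have h5 : (x' - 1) * (3 * (m' - x') - 1) = 1 := by linarith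
      rcases Int.eq_one_or_neg_one_of_mul_eq_one (mul_comm (x' - 1) _ ▸ h5) with h | h <;> omega

include hT hP in
theorem trivial_of_odd (hm : 2 ≤ m) (hq2 : q ≠ 2) (hqm : q ∣ m) {Z : DihedralGroup m → ℤ}
    (hZ : Rational Γ Z) (h01 : ∀ u, Z u = 0 ∨ Z u = 1) (hr : ∀ x, Z (r (x + zq m q)) = Z (r x)) :
    rSum Z = 0 ∨ rSum Z = m := by
  obtain ⟨he, -, -⟩ := square_of_r_shift hT hP hm hqm hZ h01 hr
  obtain ⟨hx0, hxm⟩ := rSum_bounds h01
  obtain ⟨k, hk⟩ := hq.out.odd_of_ne_two hq2
  have := hq.out.two_le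
  refine arith_odd (q := (q : ℤ)) (d := rSum Z - sSum Z) (by omega) hx0 hxm (dvd_rSum hqm hr)
    (Int.natCast_dvd_natCast.mpr hqm) (by omega) ?_ (inequality hT hP hm hqm hZ h01 hr)
  linear_combination (-1 : ℤ) * he

include hT hP in
/-- Rational functions take one value on the rotations of order divisible by an odd prime. -/
theorem eq_of_prime_dvd_order (hm : 2 ≤ m) (hq2 : q ≠ 2) (hqm : q ∣ m) {R : Type*}
    {φ : DihedralGroup m → R} (hφ : Rational Γ φ) {x : ZMod m} (hx : q ∣ addOrderOf x) :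
    φ (r x) = φ (r (zq m q)) := by
  classical
  set z := zq m q with hz
  set v := φ (r z) with hv
  let f : DihedralGroup m → ZMod q := fun u => if φ u = v then 1 else 0
  have hf : Rational Γ f := hφ.comp fun a => if a = v then (1 : ZMod q) else 0
  set F := cpow f q with hF
  have hFI : Inv Γ F := Inv.cpow hT hf.1 q
  have hsym := symm_r hT hP hf.1
  have hfib : ∀ x, F (r x) = ∑ y ∈ Finset.univ.filter (fun y => q • y = x), f (r y) :=
    fun x => cpow_prime_r hq2 hsym x
  have hFR : Rational Γ F := by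
    refine ⟨hFI, fun k hk x => ?_⟩
    rw [hfib, hfib]
    refine (Finset.sum_nbij' (fun y => k * y) (fun y => hk.unit⁻¹ * y) ?_ ?_ ?_ ?_ ?_).symm
    · intro y hy
      simp only [Finset.mem_filter, Finset.mem_univ, true_and] at hy ⊢
      rw [← hy, mul_smul_comm]
    · intro y hy
      simp only [Finset.mem_filter, Finset.mem_univ, true_and] at hy ⊢
      rw [← mul_smul_comm, hy, ← mul_assoc, IsUnit.val_inv_mul, one_mul]
    · exact fun y _ => by simp [← mul_assoc]
    · exact fun y _ => by simp [← mul_assoc]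
    · exact fun y _ => (hf.2 k hk y).symm
  have hfun : ∀ w, addOrderOf w = (addOrderOf w).lcm q → F (r w) = 0 := by
    intro w hw
    rw [hfib]
    rcases (Finset.univ.filter fun y : ZMod m => q • y = w).eq_empty_or_nonempty with h0 | ⟨y₀, hy₀⟩
    · rw [h0, Finset.sum_empty]
    have hy : q • y₀ = w := (Finset.mem_filter.mp hy₀).2
    have hqw : q ∣ addOrderOf w := hw ▸ Nat.dvd_lcm_right _ _
    have hord : ∀ y : ZMod m, q • y = w → addOrderOf y = q * addOrderOf w := by
      intro y hy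
      have h1 := IsOfFinAddOrder.addOrderOf_nsmul y q (isOfFinAddOrder_of_finite y)
      rw [hy] at h1
      have h2 : q ∣ addOrderOf y := hqw.trans (by rw [← hy]; exact addOrderOf_smul_dvd q)
      rw [Nat.gcd_eq_right h2] at h1
      rw [h1, Nat.mul_div_cancel' h2]
    rw [Finset.sum_congr rfl fun y hy' => hf.eq_of_order (y := y₀)
      ((hord y (Finset.mem_filter.mp hy').2).trans (hord y₀ hy).symm),
      sum_fiber hqm hy fun _ => f (r y₀), Finset.sum_const, Finset.card_range, nsmul_eq_mul,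
      ZMod.natCast_self, zero_mul]
  let Z : DihedralGroup m → ℤ := fun u =>
    if u = 1 then 1 else if f u - F u = 1 then 1 else 0
  have hcomb : Rational Γ fun u => f u - F u :=
    ⟨Inv.comp₂ hf.1 hFI fun a b => a - b, fun k hk x => by simp only [hf.2 k hk, hFR.2 k hk]⟩
  have hZ : Rational Γ Z := (hcomb.comp fun a => if a = 1 then (1 : ℤ) else 0).ite_one 1
  have h01 : ∀ u, Z u = 0 ∨ Z u = 1 := fun u => by simp only [Z]; split_ifs <;> simp
  have hr1 : ∀ y : ZMod m, (r y : DihedralGroup m) = 1 ↔ y = 0 := fun y =>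
    ⟨fun h => DihedralGroup.r.inj (h.trans DihedralGroup.one_def), fun h => h ▸ rfl⟩
  have hkey : ∀ y w : ZMod m, y ≠ 0 → addOrderOf w = (addOrderOf y).lcm q →
      Z (r y) = if φ (r w) = v then 1 else 0 := by
    intro y w hy hw
    have : f (r y) - F (r y) = f (r w) := by
      by_cases hd : q ∣ addOrderOf y
      · have hl : (addOrderOf y).lcm q = addOrderOf y := Nat.lcm_eq_left hd
        rw [hfun y hl.symm, sub_zero, hf.eq_of_order (x := y) (y := w) (by rw [hw, hl])]
      · obtain ⟨n, hn⟩ := exists_nsmul_eq_self_of_coprime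
          (x := y) (n := q) ((hq.out.coprime_iff_not_dvd).mpr hd)
        set y₀ := n • y with hy₀
        have hqy : q • y₀ = y := by rw [hy₀, smul_comm]; exact hn
        have hord : addOrderOf y₀ = addOrderOf y := Nat.dvd_antisymm
          (addOrderOf_smul_dvd n)
          (by conv_lhs => rw [← hqy]
              exact addOrderOf_smul_dvd q)
        have hjord : ∀ j, j ∈ (Finset.range q).erase 0 → addOrderOf (y₀ + j • z) = addOrderOf w := by
          intro j hj
          obtain ⟨hj0, hjq⟩ := Finset.mem_erase.mp hj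
          have hjz : addOrderOf (j • z) = q := by
            refine addOrderOf_eq_prime (by rw [smul_comm, hz, nsmul_zq hqm, smul_zero]) fun h0 => ?_
            have := addOrderOf_dvd_of_nsmul_eq_zero h0
            rw [hz, addOrderOf_zq hqm] at this
            exact absurd (Nat.le_of_dvd (Nat.pos_of_ne_zero hj0) this) (by
              have := Finset.mem_range.mp hjq; omega)
          have hc : (addOrderOf y₀).Coprime (addOrderOf (j • z)) := by
            rw [hjz, hord]
            exact ((hq.out.coprime_iff_not_dvd).mpr hd).symm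
          rw [(AddCommute.all y₀ _).addOrderOf_add_eq_mul_addOrderOf_of_coprime hc, hjz, hord, hw,
            Nat.Coprime.lcm_eq_mul (by rwa [hjz, hord] at hc)]
        rw [hfib, sum_fiber hqm hqy, ← Finset.add_sum_erase _ _ (Finset.mem_range.mpr hq.out.pos),
          zero_smul, add_zero, hf.eq_of_order hord,
          Finset.sum_congr rfl fun j hj => hf.eq_of_order (hjord j hj), Finset.sum_const,
          Finset.card_erase_of_mem (Finset.mem_range.mpr hq.out.pos), Finset.card_range, nsmul_eq_mul,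
          Nat.cast_sub hq.out.one_le, ZMod.natCast_self]
        ring
    simp only [Z, hr1, hy, if_false, this, f]
    by_cases h : φ (r w) = v <;> simp [h, zero_ne_one]
  have hw : ∀ y : ZMod m, ∃ w : ZMod m, addOrderOf w = (addOrderOf y).lcm q := fun y => by
    by_cases hd : q ∣ addOrderOf y
    · exact ⟨y, (Nat.lcm_eq_left hd).symm⟩
    · exact ⟨_, addOrderOf_add_zq hqm hd⟩
  have hker : ∀ y : ZMod m, q • y = 0 → Z (r y) = 1 := by
    intro y hy
    by_cases h0 : y = 0
    · simp [Z, h0]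
    · have h1 := eq_nsmul_of_lcm hqm hy h0
      rw [addOrderOf_zq hqm] at h1
      rw [hkey y z h0 (by rw [hz, addOrderOf_zq hqm, h1, Nat.lcm_self]), if_pos rfl]
  have hr : ∀ y, Z (r (y + z)) = Z (r y) := by
    intro y
    by_cases hy : q • y = 0
    · rw [hker y hy, hker _ (by rw [smul_add, hy, hz, nsmul_zq hqm, add_zero])]
    · obtain ⟨w, hw⟩ := hw y
      have hy0 : y ≠ 0 := fun h => hy (by rw [h, smul_zero])
      have hy1 : y + z ≠ 0 := fun h => hy (by
        rw [eq_neg_of_add_eq_zero_left h, smul_neg, hz, nsmul_zq hqm, neg_zero])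
      rw [hkey y w hy0 hw, hkey _ w hy1 (by rw [hz, lcm_order_add hqm, hw])]
  have hx0 : x ≠ 0 := fun h => by
    rw [h, addOrderOf_zero, Nat.dvd_one] at hx
    exact hq.out.one_lt.ne' hx
  rcases trivial_of_odd hT hP hm hq2 hqm hZ h01 hr with h | h
  · have := rSum_eq_zero h01 h 0
    simp [Z] at this
  · have := rSum_eq_card h01 h x
    rw [hkey x x hx0 (Nat.lcm_eq_left hx).symm] at this
    by_contra hne
    rw [if_neg hne] at this
    exact zero_ne_one this

end CfsgLib.DihedralB58
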