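import Cfsg.Agent.DihedralB58.Mult

/-!
Elementary facts on orders and fibres of multiplication by a prime in a finite cyclic group.
-/

set_option autoImplicit false

namespace CfsgLib.DihedralB58

open Equiv DihedralGroup

variable {m q : ℕ} [NeZero m] [hq : Fact q.Prime]

/-- The standard element of prime order. -/
def zq (m q : ℕ) : ZMod m := ((m / q : ℕ) : ZMod m)

theorem nsmul_zq (hqm : q ∣ m) : q • zq m q = 0 := by
  rw [zq, nsmul_eq_mul, ← Nat.cast_mul, Nat.mul_div_cancel' hqm, ZMod.natCast_self]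

omit [NeZero m] in
theorem exists_eq_nsmul_zq (hqm : q ∣ m) [NeZero m] {w : ZMod m} (hw : q • w = 0) :
    ∃ j : ℕ, w = j • zq m q := by
  rw [← ZMod.natCast_zmod_val w, nsmul_eq_mul, ← Nat.cast_mul, ZMod.natCast_eq_zero_iff] at hw
  obtain ⟨c, hc⟩ := hw
  refine ⟨c, ?_⟩
  rw [zq, nsmul_eq_mul, ← Nat.cast_mul]
  conv_lhs => rw [← ZMod.natCast_zmod_val w]
  congr 1
  have h := hq.out.pos
  obtain ⟨n, rfl⟩ := hqm
  rw [Nat.mul_div_cancel_left n h]
  exact Nat.eq_of_mul_eq_mul_left h (by rw [hc]; ring)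

theorem addOrderOf_zq (hqm : q ∣ m) : addOrderOf (zq m q) = q := by
  refine addOrderOf_eq_prime (nsmul_zq hqm) ?_
  rw [zq, Ne, ZMod.natCast_eq_zero_iff]
  have h := hq.out.two_le
  have hm : 0 < m := NeZero.pos m
  exact fun h' => absurd (Nat.le_of_dvd (Nat.div_pos (Nat.le_of_dvd hm hqm) (by omega)) h')
    (by have := Nat.div_lt_self hm (by omega : 1 < q); omega)

theorem zq_ne_zero (hqm : q ∣ m) : zq m q ≠ 0 := fun h => by
  have := addOrderOf_zq (m := m) (q := q) hqm
  rw [h, addOrderOf_zero] at this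
  exact hq.out.one_lt.ne' this.symm

theorem zq_shift {α : Type*} {g : ZMod m → α} (hg : ∀ x, g (x + zq m q) = g x) (x : ZMod m) :
    ∀ j : ℕ, g (x + j • zq m q) = g x
  | 0 => by simp
  | j + 1 => by rw [succ_nsmul, ← add_assoc, hg, zq_shift hg x j]

theorem fiber_eq (hqm : q ∣ m) {x y₀ : ZMod m} (h : q • y₀ = x) :
    (Finset.univ.filter fun y : ZMod m => q • y = x) =
      (Finset.range q).image fun j => y₀ + j • zq m q := by
  ext y
  simp only [Finset.mem_filter, Finset.mem_univ, true_and, Finset.mem_image, Finset.mem_range]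
  constructor
  · intro hy
    obtain ⟨j, hj⟩ := exists_eq_nsmul_zq hqm (w := y - y₀) (by rw [smul_sub, hy, h, sub_self])
    refine ⟨j % q, Nat.mod_lt _ hq.out.pos, ?_⟩
    have := mod_addOrderOf_nsmul (zq m q) j
    rw [addOrderOf_zq hqm] at this
    rw [this, ← hj]
    abel
  · rintro ⟨j, -, rfl⟩
    rw [smul_add, h, smul_smul, mul_comm, mul_smul, nsmul_zq hqm, smul_zero, add_zero]

theorem fiber_injOn (hqm : q ∣ m) (y₀ : ZMod m) :
    Set.InjOn (fun j => y₀ + j • zq m q) (Finset.range q : Set ℕ) := by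
  intro i hi j hj h
  simp only [Finset.coe_range, Set.mem_Iio] at hi hj
  refine nsmul_injOn_Iio_addOrderOf (x := zq m q) ?_ ?_ (add_left_cancel h) <;>
    simpa [addOrderOf_zq hqm]

theorem sum_fiber {M : Type*} [AddCommMonoid M] (hqm : q ∣ m) {x y₀ : ZMod m} (h : q • y₀ = x)
    (g : ZMod m → M) :
    ∑ y ∈ Finset.univ.filter (fun y : ZMod m => q • y = x), g y =
      ∑ j ∈ Finset.range q, g (y₀ + j • zq m q) := by
  rw [fiber_eq hqm h, Finset.sum_image (fiber_injOn hqm y₀)]

/-- A periodic function has zero sum modulo the prime. -/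
theorem sum_periodic (hqm : q ∣ m) {g : ZMod m → ZMod q} (hg : ∀ y, g (y + zq m q) = g y) :
    ∑ y, g y = 0 := by
  rw [← Finset.sum_fiberwise Finset.univ (fun y => q • y) g]
  refine Finset.sum_eq_zero fun h _ => ?_
  rcases (Finset.univ.filter fun y : ZMod m => q • y = h).eq_empty_or_nonempty with h0 | ⟨y₀, hy₀⟩
  · rw [h0, Finset.sum_empty]
  · rw [sum_fiber hqm (Finset.mem_filter.mp hy₀).2, Finset.sum_congr rfl fun j _ => zq_shift hg y₀ j,
      Finset.sum_const, Finset.card_range, nsmul_eq_mul, ZMod.natCast_self, zero_mul]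

theorem periodic_mul_eq_zero (hqm : q ∣ m) {f g : ZMod m → ZMod q}
    (hf : ∀ y, f (y + zq m q) = f y) (hg : ∀ y, g (y + zq m q) = g y) : mk f * mk g = 0 := by
  ext x
  rw [mk_mul, sum_periodic hqm fun y => ?_]
  · simp
  · rw [hf]
    congr 1
    rw [← hg (x - (y + zq m q))]
    congr 1
    abel

/-- Elements of equal order differ by a unit factor. -/
theorem exists_unit_mul {x y : ZMod m} (h : addOrderOf x = addOrderOf y) :
    ∃ k : ZMod m, IsUnit k ∧ k * x = y := by
  classical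
  set d := addOrderOf x with hd
  have hd0 : 0 < d := addOrderOf_pos x
  obtain ⟨j, hjd, hj⟩ : ∃ j < d, j • x = y := by
    have hsub : (Finset.range d).image (· • x) ⊆ Finset.univ.filter fun w : ZMod m => d • w = 0 := by
      intro w hw
      obtain ⟨i, -, rfl⟩ := Finset.mem_image.mp hw
      refine Finset.mem_filter.mpr ⟨Finset.mem_univ _, ?_⟩
      rw [smul_comm, hd, addOrderOf_nsmul_eq_zero, smul_zero]
    have hcard : ((Finset.range d).image (· • x)).card = d := by
      rw [Finset.card_image_of_injOn, Finset.card_range]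
      intro a ha b hb e
      exact nsmul_injOn_Iio_addOrderOf (x := x) (Finset.mem_range.mp ha) (Finset.mem_range.mp hb) e
    have := Finset.eq_of_subset_of_card_le hsub
      ((IsAddCyclic.card_nsmul_eq_zero_le (α := ZMod m) hd0).trans hcard.ge)
    have hy : y ∈ Finset.univ.filter fun w : ZMod m => d • w = 0 := by
      refine Finset.mem_filter.mpr ⟨Finset.mem_univ _, ?_⟩
      rw [h, addOrderOf_nsmul_eq_zero]
    rw [← this, Finset.mem_image] at hy
    obtain ⟨i, hi, rfl⟩ := hy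
    exact ⟨i, Finset.mem_range.mp hi, rfl⟩
  have hdm : d ∣ m := by
    simpa [hd] using (addOrderOf_dvd_natCard x)
  have hcop : j.Coprime d := by
    have h2 := IsOfFinAddOrder.addOrderOf_nsmul x j (isOfFinAddOrder_of_finite x)
    rw [hj, ← h, ← hd] at h2
    exact Nat.Coprime.symm ((Nat.div_eq_self.mp h2.symm).resolve_left hd0.ne')
  obtain ⟨k, hk⟩ := ZMod.unitsMap_surjective hdm (ZMod.unitOfCoprime j hcop)
  refine ⟨k, k.isUnit, ?_⟩
  have hk' : (((k : ZMod m).val : ℕ) : ZMod d) = (j : ZMod d) := by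
    rw [← ZMod.cast_eq_val]
    simpa [ZMod.unitsMap, ZMod.castHom_apply] using congrArg Units.val hk
  rw [ZMod.natCast_eq_natCast_iff, Nat.ModEq] at hk'
  rw [← ZMod.natCast_zmod_val (k : ZMod m), ← nsmul_eq_mul, ← mod_addOrderOf_nsmul, ← hd, hk',
    Nat.mod_eq_of_lt hjd, hj]

theorem Rational.eq_of_order {Γ : Subgroup (Perm (DihedralGroup m))} {R : Type*}
    {φ : DihedralGroup m → R} (hφ : Rational Γ φ) {x y : ZMod m}
    (h : addOrderOf x = addOrderOf y) : φ (r x) = φ (r y) := by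
  obtain ⟨k, hk, rfl⟩ := exists_unit_mul h
  exact (hφ.2 k hk x).symm

theorem lcm_order_add (hqm : q ∣ m) (x : ZMod m) :
    (addOrderOf (x + zq m q)).lcm q = (addOrderOf x).lcm q := by
  have h1 : ∀ a b : ZMod m, addOrderOf b = q → (addOrderOf (a + b)).lcm q ∣ (addOrderOf a).lcm q :=
    fun a b hb => Nat.lcm_dvd (hb ▸ (AddCommute.all a b).addOrderOf_add_dvd_lcm) (Nat.dvd_lcm_right _ _)
  refine Nat.dvd_antisymm (h1 _ _ (addOrderOf_zq hqm)) ?_
  have := h1 (x + zq m q) (-zq m q) (by rw [addOrderOf_neg, addOrderOf_zq hqm])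
  rwa [add_neg_cancel_right] at this

theorem addOrderOf_add_zq (hqm : q ∣ m) {x : ZMod m} (hx : ¬ q ∣ addOrderOf x) :
    addOrderOf (x + zq m q) = (addOrderOf x).lcm q := by
  have hc : (addOrderOf x).Coprime (addOrderOf (zq m q)) := by
    rw [addOrderOf_zq hqm]
    exact ((hq.out.coprime_iff_not_dvd).mpr hx).symm
  rw [(AddCommute.all x _).addOrderOf_add_eq_mul_addOrderOf_of_coprime hc, addOrderOf_zq hqm,
    Nat.Coprime.lcm_eq_mul (by rwa [addOrderOf_zq hqm] at hc)]

theorem eq_nsmul_of_lcm (hqm : q ∣ m) {x : ZMod m} (h : q • x = 0) (hx : x ≠ 0) :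
    addOrderOf x = addOrderOf (zq m q) := by
  rw [addOrderOf_zq hqm, addOrderOf_eq_prime h hx]

end CfsgLib.DihedralB58
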