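import Cfsg.Agent.DihedralB58.Odd

/-!
The prime two: the cyclic part is a two-group, or the set lies in the two-part.
-/

set_option autoImplicit false

namespace CfsgLib.DihedralB58

open Equiv DihedralGroup

variable {m : ℕ} [NeZero m] {Γ : Subgroup (Perm (DihedralGroup m))}
  (hT : HasTrans Γ) (hP : Prim Γ)

include hT hP in
/-- A periodic rational set inside the two-part is empty when the order is not a power of two. -/
theorem rSum_eq_zero_of_pure (hm : 2 ≤ m) (h2 : 2 ∣ m) {a l : ℕ} [NeZero l] (hml : m = 2 ^ a * l)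
    (hodd : Odd l) (hl : 2 ≤ l) {Z : DihedralGroup m → ℤ} (hZ : Rational Γ Z)
    (h01 : ∀ u, Z u = 0 ∨ Z u = 1) (hr : ∀ x, Z (r (x + zq m 2)) = Z (r x))
    (hsupp : ∀ x : ZMod m, Z (r x) ≠ 0 → 2 ^ a • x = 0) : rSum Z = 0 := by
  classical
  haveI : Fact (1 < l) := ⟨hl⟩
  obtain ⟨he, h1, h2'⟩ := square_of_r_shift hT hP hm h2 hZ h01 hr
  set x := rSum Z with hx
  set y := sSum Z with hy
  by_contra hx0
  obtain ⟨hxnn, -⟩ := rSum_bounds h01
  obtain ⟨hynn, -⟩ := sSum_bounds h01
  have hlm : l ∣ m := ⟨2 ^ a, by rw [hml, mul_comm]⟩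
  let π : ZMod m →+ ZMod l := (ZMod.castHom hlm (ZMod l)).toAddMonoidHom
  let Pr := AddMonoidAlgebra.mapDomainRingHom ℤ π
  have hπ : ∀ v : ZMod m, Z (r v) ≠ 0 → π v = 0 := by
    intro v hv
    have h : 2 ^ a • π v = 0 := by rw [← map_nsmul, hsupp v hv, map_zero]
    have hdvd := addOrderOf_dvd_of_nsmul_eq_zero h
    have hdvd' : addOrderOf (π v) ∣ l := by
      simpa using (addOrderOf_dvd_natCard (π v))
    have hc : (2 ^ a).Coprime l := Nat.Coprime.pow_left _ (Nat.coprime_two_left.mpr hodd)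
    exact AddMonoid.addOrderOf_eq_one_iff.mp (Nat.eq_one_of_dvd_coprimes hc hdvd hdvd')
  have hmk : ∀ g : ZMod m → ℤ, mk g = ∑ v, AddMonoidAlgebra.single v (g v) := fun g => by
    ext w
    simp [AddMonoidAlgebra.coeff_sum, Finsupp.single_apply]
  have hPra : Pr (aPart Z) = x • 1 := by
    rw [aPart, hmk, map_sum]
    ext w
    simp only [AddMonoidAlgebra.coeff_sum, Finsupp.finsetSum_apply, Pr, AddMonoidAlgebra.mapDomainRingHom_apply,
      AddMonoidAlgebra.mapDomain_single, AddMonoidAlgebra.coeff_single, AddMonoidAlgebra.coeff_smul,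
      Finsupp.smul_apply, AddMonoidAlgebra.one_def, smul_eq_mul, hx, rSum, Finset.sum_mul]
    refine Finset.sum_congr rfl fun v _ => ?_
    by_cases hv : Z (r v) = 0
    · simp [hv]
    · rw [hπ v hv, Finsupp.single_apply, Finsupp.single_apply]
      split_ifs <;> simp
  have hπs : Function.Surjective π := ZMod.castHom_surjective hlm
  have hfib : ∀ w : ZMod l, (Finset.univ.filter fun v => π v = w).card = 2 ^ a := by
    intro w
    obtain ⟨v₀, rfl⟩ := hπs w
    have hall : ∀ w : ZMod l, (Finset.univ.filter fun v => π v = w).card =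
        (Finset.univ.filter fun v => π v = 0).card := by
      intro w
      obtain ⟨v₁, rfl⟩ := hπs w
      refine Finset.card_nbij' (fun v => v - v₁) (fun v => v + v₁) ?_ ?_ ?_ ?_ <;>
        intro v hv <;> simp_all
    have hsum := Finset.card_eq_sum_card_fiberwise (s := (Finset.univ : Finset (ZMod m))) (f := π)
      (t := Finset.univ) fun _ _ => Finset.mem_univ _
    simp only [hall, Finset.sum_const, Finset.card_univ, ZMod.card, smul_eq_mul] at hsum
    rw [hall]
    exact Nat.eq_of_mul_eq_mul_left (NeZero.pos l) (by rw [← hsum, hml, mul_comm])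
  have hPrJ : Pr (allOne m) = (2 ^ a : ℤ) • allOne l := by
    rw [allOne, hmk, map_sum]
    ext w
    simp only [AddMonoidAlgebra.coeff_sum, Finsupp.finsetSum_apply, Pr, AddMonoidAlgebra.mapDomainRingHom_apply,
      AddMonoidAlgebra.mapDomain_single, AddMonoidAlgebra.coeff_single, AddMonoidAlgebra.coeff_smul,
      Finsupp.smul_apply, allOne, coeff_mk, smul_eq_mul, mul_one, Finsupp.single_apply]
    rw [Finset.sum_boole, hfib w]
    norm_num
  set e := x + y - (x - y) ^ 2 with hedef
  set b' := Pr (bPart Z)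
  have h3 := congrArg Pr h2'
  rw [map_nsmul, map_zsmul, map_mul, hPra, hPrJ] at h3
  have hbc : ∀ w, 2 * x * b'.coeff w = e * 2 ^ a := by
    intro w
    have h := congrArg (fun Φ : AddMonoidAlgebra ℤ (ZMod l) => Φ.coeff w) h3
    rw [smul_mul_assoc, one_mul, AddMonoidAlgebra.coeff_smul, Finsupp.smul_apply,
      AddMonoidAlgebra.coeff_smul, Finsupp.smul_apply, AddMonoidAlgebra.coeff_smul, Finsupp.smul_apply,
      AddMonoidAlgebra.coeff_smul, Finsupp.smul_apply, allOne, coeff_mk] at h
    simp only [nsmul_eq_mul, smul_eq_mul, Nat.cast_ofNat] at h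
    linarith
  set w₀ := b'.coeff 0
  have hx' : 2 * x ≠ 0 := by omega
  have hconst : ∀ w, b'.coeff w = w₀ := fun w =>
    mul_left_cancel₀ hx' ((hbc w).trans (hbc 0).symm)
  have hlw : (l : ℤ) * w₀ = y := by
    refine mul_left_cancel₀ hx' ?_
    have hml' : ((2 : ℤ) ^ a * l) = m := by exact_mod_cast hml.symm
    linear_combination (l : ℤ) * hbc 0 - he + e * hml'
  set c' := Pr (bBar Z)
  have hc' : ∑ w, c'.coeff w = y := by
    simp only [c']
    rw [bBar, hmk, map_sum]
    simp only [Pr, AddMonoidAlgebra.coeff_sum, Finsupp.finsetSum_apply,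
      AddMonoidAlgebra.mapDomainRingHom_apply, AddMonoidAlgebra.mapDomain_single, AddMonoidAlgebra.coeff_single]
    rw [Finset.sum_comm]
    exact Finset.sum_congr rfl fun v _ => by simp [Finsupp.single_apply]
  have h4 := congrArg Pr h1
  rw [map_add, map_add, map_zsmul, map_zsmul, map_one, map_mul, map_mul, hPra, hPrJ] at h4
  have hshiftc : ∀ w, ∑ v, c'.coeff (w - v) = y := fun w =>
    (Equiv.sum_comp (Equiv.subLeft w) fun v => c'.coeff v).trans hc'
  have hcoef : ∀ w : ZMod l, (if w = 0 then x ^ 2 else 0) + w₀ * y =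
      (if w = 0 then (x - y) ^ 2 else 0) + e * 2 ^ a := by
    intro w
    have h := congrArg (fun Φ : AddMonoidAlgebra ℤ (ZMod l) => Φ.coeff w) h4
    rw [smul_mul_smul_comm, one_mul, AddMonoidAlgebra.coeff_add, Finsupp.add_apply,
      AddMonoidAlgebra.coeff_add, Finsupp.add_apply, CfsgLib.SRing54.mul_apply_sum,
      AddMonoidAlgebra.coeff_smul, Finsupp.smul_apply, AddMonoidAlgebra.coeff_smul, Finsupp.smul_apply,
      AddMonoidAlgebra.coeff_smul, Finsupp.smul_apply, AddMonoidAlgebra.coeff_smul, Finsupp.smul_apply,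
      AddMonoidAlgebra.one_def, AddMonoidAlgebra.coeff_single, allOne, coeff_mk,
      Finset.sum_congr rfl fun v _ => congrArg (· * c'.coeff (w - v)) (hconst v),
      ← Finset.mul_sum, hshiftc w] at h
    by_cases hw : w = 0
    · subst hw
      simp only [Finsupp.single_eq_same, smul_eq_mul] at h
      simp
      linarith
    · rw [Finsupp.single_eq_of_ne hw] at h
      simp only [smul_eq_mul] at h
      simp [hw]
      linarith
  have hA := hcoef 1
  rw [if_neg one_ne_zero, if_neg one_ne_zero] at hA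
  have hB := hcoef 0
  rw [if_pos rfl, if_pos rfl] at hB
  have hsq : y * (y - 2 * x) = 0 := by linarith
  obtain ⟨x', hx'2⟩ := dvd_rSum (q := 2) h2 hr
  rw [← hx] at hx'2
  rcases mul_eq_zero.mp hsq with hy0 | hy2
  · -- no reflections
    rw [hy0] at he
    have hm0 : (m : ℤ) ≠ 0 := by omega
    have : e = 0 := by
      have : (m : ℤ) * e = 0 := by linarith
      exact (mul_eq_zero.mp this).resolve_left hm0
    have hxx : x * (x - 1) = 0 := by rw [hedef, hy0] at this; linarith
    rcases mul_eq_zero.mp hxx with h | h <;> omega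
  · have hy2' : y = 2 * x := by omega
    have h8 : x * (4 * x - m * (3 - x)) = 0 := by
      rw [hedef, hy2'] at he
      linear_combination he
    have h9 := (mul_eq_zero.mp h8).resolve_left hx0
    have hx3 : x < 3 := by
      by_contra hcon
      have : (m : ℤ) * (3 - x) ≤ 0 := mul_nonpos_of_nonneg_of_nonpos (by omega) (by omega)
      omega
    have hx2 : x = 2 := by omega
    rw [hx2] at h9
    have hm8 : 2 ^ a * l = 8 := by omega
    have hl8 : l ∣ 2 ^ 3 := ⟨2 ^ a, by rw [mul_comm]; exact hm8.symm⟩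
    have := (Nat.Coprime.pow_right 3 (Nat.coprime_two_right.mpr hodd)).eq_one_of_dvd hl8
    omega

/-- In the group algebra of a cyclic two-group, an element annihilating its reverse is periodic. -/
theorem periodic_of_mul_bar {a : ℕ} (hma : m = 2 ^ a) (ha : 1 ≤ a) {b : AddMonoidAlgebra (ZMod 2) (ZMod m)}
    (h : b * AddMonoidAlgebra.mapDomainRingHom (ZMod 2) (-AddMonoidHom.id (ZMod m)) b = 0) (x : ZMod m) :
    b.coeff (x + zq m 2) = b.coeff x := by
  classical
  haveI : Fact (Nat.Prime 2) := ⟨Nat.prime_two⟩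
  set g : AddMonoidAlgebra (ZMod 2) (ZMod m) := AddMonoidAlgebra.single 1 1
  set T : AddMonoidAlgebra (ZMod 2) (ZMod m) := g - 1
  set σ := AddMonoidAlgebra.mapDomainRingHom (ZMod 2) (-AddMonoidHom.id (ZMod m))
  have hgp : ∀ n : ℕ, g ^ n = AddMonoidAlgebra.single (n : ZMod m) 1 := fun n => by
    simp [g, AddMonoidAlgebra.single_pow]
  let ε : AddMonoidAlgebra (ZMod 2) (ZMod m) → ZMod 2 := fun c => ∑ v, c.coeff v
  have hdiv : ∀ c : AddMonoidAlgebra (ZMod 2) (ZMod m), ε c = 0 → T ∣ c := by
    intro c hc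
    have h1 : c = ∑ v, c.coeff v • (g ^ v.val - 1) := by
      simp only [smul_sub, Finset.sum_sub_distrib, hgp, ZMod.natCast_zmod_val]
      rw [← Finset.sum_smul, show ∑ v, c.coeff v = 0 from hc, zero_smul, sub_zero]
      ext w
      simp [AddMonoidAlgebra.coeff_sum, AddMonoidAlgebra.coeff_smul, Finsupp.single_apply]
    rw [h1]
    exact Finset.dvd_sum fun v _ => dvd_smul_of_dvd _ (sub_one_dvd_pow_sub_one g v.val)
  have hunit : ∀ c : AddMonoidAlgebra (ZMod 2) (ZMod m), ε c = 1 → IsUnit c := by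
    intro c hc
    have h1 : c ^ 2 ^ a = 1 := by
      have hcs : c = ∑ v, AddMonoidAlgebra.single v (c.coeff v) := by
        ext w
        simp [AddMonoidAlgebra.coeff_sum, Finsupp.single_apply]
      rw [hcs, sum_pow_char_pow 2 a]
      have hz : ∀ v : ZMod m, 2 ^ a • v = 0 := fun v => by
        rw [← hma, nsmul_eq_mul, ZMod.natCast_self, zero_mul]
      simp only [AddMonoidAlgebra.single_pow, hz, ZMod.pow_card_pow]
      ext w
      by_cases hw : w = 0
      · subst hw
        simp [AddMonoidAlgebra.coeff_sum, AddMonoidAlgebra.one_def]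
        exact hc
      · simp [AddMonoidAlgebra.coeff_sum, AddMonoidAlgebra.one_def, Finsupp.single_eq_of_ne hw]
    exact IsUnit.of_pow_eq_one h1 (by positivity)
  have hTz : ∀ n, n < m → (T ^ n).coeff (n : ZMod m) = 1 ∧ ∀ j, n < j → j < m → (T ^ n).coeff (j : ZMod m) = 0 := by
    intro n
    induction n with
    | zero =>
      intro h0
      refine ⟨by simp [AddMonoidAlgebra.one_def], fun j hj hjm => ?_⟩
      rw [pow_zero, AddMonoidAlgebra.one_def, AddMonoidAlgebra.coeff_single, Finsupp.single_eq_of_ne]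
      rw [Ne, ZMod.natCast_eq_zero_iff]
      exact fun h => absurd (Nat.le_of_dvd hj h) (by omega)
    | succ n ih =>
      intro hn
      obtain ⟨ih1, ih2⟩ := ih (by omega)
      have hstep : ∀ j : ℕ, (T ^ (n + 1)).coeff ((j + 1 : ℕ) : ZMod m) =
          (T ^ n).coeff (j : ZMod m) - (T ^ n).coeff ((j + 1 : ℕ) : ZMod m) := fun j => by
        rw [pow_succ, mul_sub, mul_one, AddMonoidAlgebra.coeff_sub, Finsupp.sub_apply]
        congr 1
        simp [g, Nat.cast_succ, AddMonoidAlgebra.coeff_mul_single_apply]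
      refine ⟨by rw [hstep, ih1, ih2 (n + 1) (by omega) hn, sub_zero], fun j hj hjm => ?_⟩
      obtain ⟨j, rfl⟩ : ∃ i, j = i + 1 := ⟨j - 1, by omega⟩
      rw [hstep, ih2 j (by omega) (by omega), ih2 (j + 1) (by omega) hjm, sub_zero]
  have hex : ∀ v : ℕ, T ^ v ∣ b → v ≤ m / 2 → T ^ (m / 2) ∣ b := by
    suffices ∀ k v : ℕ, v + k = m / 2 → T ^ v ∣ b → T ^ (m / 2) ∣ b from
      fun v hv hle => this (m / 2 - v) v (by omega) hv
    intro k
    induction k with
    | zero => intro v hv hd; rwa [← hv, add_zero]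
    | succ k ih =>
      intro v hv hd
      obtain ⟨c, rfl⟩ := hd
      rcases ((show ∀ t : ZMod 2, t = 0 ∨ t = 1 by intro t; fin_cases t; exacts [Or.inl rfl, Or.inr rfl]) (ε c)) with h0 | h1
      · obtain ⟨d, rfl⟩ := hdiv c h0
        exact ih (v + 1) (by omega) ⟨d, by ring⟩
      · exfalso
        have hu := hunit c h1
        have hσT : σ T = T * -σ g := by
          have hgg : g * σ g = 1 := by
            simp [σ, g, AddMonoidAlgebra.single_mul_single, AddMonoidAlgebra.one_def]
          simp only [T, map_sub, map_one]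
          linear_combination hgg
        have hgu : IsUnit (-σ g) := ((IsUnit.of_pow_eq_one (n := m) (a := g)
          (by rw [hgp, ZMod.natCast_self, AddMonoidAlgebra.one_def]) (NeZero.ne m)).map σ).neg
        have hT2 : T ^ (v + v) = 0 := by
          have h' : T ^ (v + v) * ((-σ g) ^ v * (c * σ c)) = 0 := by
            rw [← h, map_mul, map_pow, hσT]
            ring
          exact ((hgu.pow v).mul (hu.mul (hu.map σ))).mul_left_eq_zero.mp h'
        have hlt : v + v < m := by omega
        have := (hTz (v + v) hlt).1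
        rw [hT2] at this
        simp at this
  obtain ⟨c, hc⟩ := hex 0 (by simp) (Nat.zero_le _)
  have hm2 : m / 2 = 2 ^ (a - 1) := by
    obtain ⟨a', rfl⟩ : ∃ i, a = i + 1 := ⟨a - 1, by omega⟩
    rw [hma, pow_succ, Nat.mul_div_cancel _ two_pos, Nat.add_sub_cancel]
  have hT' : T ^ (m / 2) = AddMonoidAlgebra.single (zq m 2) 1 - 1 := by
    rw [hm2, sub_pow_char_pow, one_pow, hgp, zq, hm2]
  have hz2 : 2 • zq m 2 = 0 := nsmul_zq (q := 2) (hma ▸ dvd_pow_self 2 (by omega))
  have hb : AddMonoidAlgebra.single (zq m 2) 1 * b = b := by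
    rw [hc, hT', ← mul_assoc, mul_sub, mul_one, AddMonoidAlgebra.single_mul_single, one_mul,
      ← two_nsmul, hz2, ← AddMonoidAlgebra.one_def]
    have h2 : (2 : AddMonoidAlgebra (ZMod 2) (ZMod m)) = 0 := CharTwo.two_eq_zero
    linear_combination (c - AddMonoidAlgebra.single (zq m 2) 1 * c) * h2
  conv_lhs => rw [← hb]
  rw [AddMonoidAlgebra.coeff_single_mul_apply, one_mul]
  congr 1
  abel

include hT hP in
/-- A periodic rational set in the case of a cyclic two-group is trivial. -/
theorem trivial_of_two_power (hm : 2 ≤ m) {a : ℕ} (hma : m = 2 ^ a) {Z : DihedralGroup m → ℤ}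
    (hZ : Rational Γ Z) (h01 : ∀ u, Z u = 0 ∨ Z u = 1) (hr : ∀ x, Z (r (x + zq m 2)) = Z (r x)) :
    rSum Z = 0 ∨ rSum Z = m := by
  classical
  haveI : Fact (Nat.Prime 2) := ⟨Nat.prime_two⟩
  have ha : 1 ≤ a := by
    by_contra h
    have : a = 0 := by omega
    subst this
    simp at hma
    omega
  have h2 : 2 ∣ m := hma ▸ dvd_pow_self 2 (by omega)
  obtain ⟨he, h1, -⟩ := square_of_r_shift hT hP hm h2 hZ h01 hr
  obtain ⟨hx0, hxm⟩ := rSum_bounds h01
  obtain ⟨hy0, hym⟩ := sSum_bounds h01
  obtain ⟨x', hx'⟩ := dvd_rSum (q := 2) h2 hr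
  set x := rSum Z with hx
  set y := sSum Z with hy
  set e := x + y - (x - y) ^ 2 with hedef
  rcases Int.even_or_odd (x - y) with hd | hd
  · -- the reflection part is periodic
    have hee : ((e : ℤ) : ZMod 2) = 0 := by
      rw [ZMod.intCast_zmod_eq_zero_iff_dvd]
      obtain ⟨d', hd'⟩ := hd
      exact ⟨x - d' - 2 * d' ^ 2, by simp only [Nat.cast_ofNat]; linear_combination hedef + (-(1 + (x - y) + 2 * d')) * hd'⟩
    have hd2 : (((x - y) ^ 2 : ℤ) : ZMod 2) = 0 := by
      rw [ZMod.intCast_zmod_eq_zero_iff_dvd]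
      obtain ⟨d', hd'⟩ := hd
      exact ⟨2 * d' ^ 2, by simp only [Nat.cast_ofNat]; rw [hd']; ring⟩
    let β : AddMonoidAlgebra (ZMod 2) (ZMod m) := mk fun v => (Z (sr (-v)) : ZMod 2)
    let β' : AddMonoidAlgebra (ZMod 2) (ZMod m) := mk fun v => (Z (sr v) : ZMod 2)
    have hσ : AddMonoidAlgebra.mapDomainRingHom (ZMod 2) (-AddMonoidHom.id (ZMod m)) β = β' := by
      ext w
      conv_lhs => rw [← neg_neg w]
      rw [AddMonoidAlgebra.mapDomainRingHom_apply]
      exact (Finsupp.mapDomain_apply neg_injective _ (-w)).trans (by simp [β, β'])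
    have hzero : β * β' = 0 := by
      have hα : (mk fun v => (Z (r v) : ZMod 2)) * (mk fun v => (Z (r v) : ZMod 2)) = 0 :=
        periodic_mul_eq_zero h2 (fun v => congrArg _ (hr v)) (fun v => congrArg _ (hr v))
      ext w
      have h := congrArg (fun Φ : AddMonoidAlgebra ℤ (ZMod m) => ((Φ.coeff w : ℤ) : ZMod 2)) h1
      have hα' := congrArg (fun Φ : AddMonoidAlgebra (ZMod 2) (ZMod m) => Φ.coeff w) hα
      simp only [AddMonoidAlgebra.coeff_add, Finsupp.add_apply, AddMonoidAlgebra.coeff_smul,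
        Finsupp.smul_apply, smul_eq_mul, aPart, bPart, bBar, allOne, mk_mul, coeff_mk, Int.cast_add,
        Int.cast_sum, Int.cast_mul, hee, hd2, zero_mul, add_zero, AddMonoidAlgebra.coeff_zero,
        Finsupp.coe_zero, Pi.zero_apply] at h hα'
      rw [hα', zero_add] at h
      rw [mk_mul]
      simpa using h
    have hper := periodic_of_mul_bar hma ha (b := β) (by rw [hσ]; exact hzero)
    have hsr : ∀ i, Z (sr (i + zq m 2)) = Z (sr i) := by
      intro i
      have h := hper (-(i + zq m 2))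
      simp only [β, coeff_mk, neg_neg] at h
      rw [show -(-(i + zq m 2) + zq m 2) = i by abel] at h
      rcases h01 (sr i) with a1 | a1 <;> rcases h01 (sr (i + zq m 2)) with a2 | a2 <;>
        simp [a1, a2] at h ⊢
    have hconst : ∀ u, u ≠ 1 → Z u = Z (r (zq m 2)) := fun u hu =>
      eq_of_sr_shift (q := 2) hT hP h2 hZ hsr hu
    have hall : ∀ v, Z (r v) = Z (r (zq m 2)) := by
      intro v
      by_cases hv : v = 0
      · rw [hv, ← zero_add (zq m 2), hr 0]
      · exact hconst _ fun h => hv (DihedralGroup.r.inj (h.trans DihedralGroup.one_def))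
    rcases h01 (r (zq m 2)) with h | h
    · left
      rw [hx, rSum]
      exact Finset.sum_eq_zero fun v _ => (hall v).trans h
    · right
      rw [hx, rSum, Finset.sum_congr rfl fun v _ => (hall v).trans h]
      simp
  · -- one of the parts is everything
    obtain ⟨d', hd'⟩ := hd
    by_cases he0 : e = 0
    · rw [he0, mul_zero] at he
      rcases mul_eq_zero.mp (by linarith : x * y = 0) with h | h
      · exact Or.inl h
      · rw [hedef, h] at he0
        rcases mul_eq_zero.mp (by linarith : x * (x - 1) = 0) with h' | h' <;> omega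
    have hev : (2 : ℤ) ∣ e := ⟨x' * 2 - d' - 1 - 2 * d' ^ 2 - 2 * d' + x - x, by
      simp only [Nat.cast_ofNat] at hx'
      linear_combination hedef + (-(1 + (x - y) + 2 * d' + 1)) * hd' + (2 : ℤ) * hx'⟩
    obtain ⟨e', he'⟩ := hev
    have hprod : (2 * x) * (2 * y) = 2 ^ (a + 2) * e' := by
      have : (m : ℤ) = 2 ^ a := by exact_mod_cast hma
      rw [he', this] at he
      linear_combination 2 * he
    have hyodd : ¬ (2 : ℤ) ∣ y := by
      simp only [Nat.cast_ofNat] at hx'
      omega
    have h5 : 4 * (x * y) = 4 * (2 ^ a * e') := by linear_combination hprod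
    have h4 : (2 : ℤ) ^ a ∣ x * y := ⟨e', by linarith⟩
    have hcop : IsCoprime ((2 : ℤ) ^ a) y :=
      IsCoprime.pow_left ((Int.prime_two.coprime_iff_not_dvd).mpr hyodd)
    have hdvd : (m : ℤ) ∣ x := by
      rw [show (m : ℤ) = 2 ^ a by exact_mod_cast hma]
      exact hcop.dvd_of_dvd_mul_right h4
    rcases lt_or_eq_of_le hxm with hlt | heq
    · exact Or.inl (Int.eq_zero_of_dvd_of_nonneg_of_lt hx0 hlt hdvd)
    · exact Or.inr heq

end CfsgLib.DihedralB58
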